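import Cfsg.Agent.Lib.H57.AltGen
import Cfsg.Agent.Lib.H38.Goldschmidt

/-!
A variant of `H57.AltGen.lift` in which only the normalizer of a Sylow subgroup is controlled.
-/

set_option autoImplicit false
open Cfsg Equiv Equiv.Perm H57.Wreath H57.FusSimple H57.AltFus2 H57.AltGen H57

namespace H90.AltLift

theorem exists_ha {G : Type*} [Group G] [Finite G] {β : Type*} [Fintype β] [DecidableEq β]
    (hβ : 6 ≤ Fintype.card β) (H V : Subgroup G) (hVH : V ≤ H)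
    (ψ : H →* alternatingGroup β) (hker : ∀ h : H, ψ h = 1 ↔ (h : G) ∈ V)
    (hsurj : Function.Surjective ψ) (hV2 : ∀ v ∈ V, v * v = 1) (hV1 : V ≠ ⊥)
    (hC : ∀ g ∈ H, (∀ v ∈ V, g * v = v * g) → g ∈ V)
    (hfus : ∀ v ∈ V, v ≠ 1 → ∀ w ∈ V, w ≠ 1 → ∃ g : G, g * v * g⁻¹ = w)
    (hx : ∃ x ∈ H, x ∉ V ∧ ∃ g : G, ∃ v ∈ V, g * v * g⁻¹ = x)
    (hodd : ¬ 2 ∣ H.index) :
    ∃ S₀ : Sylow 2 G, HA (S₀ : Subgroup G) := by
  have : Finite H := inferInstance
  -- `V` is normal in `H`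
  have hVn : ∀ h ∈ H, ∀ v ∈ V, h * v * h⁻¹ ∈ V := by
    intro h hh v hv
    have h1 : ψ (⟨h, hh⟩ * ⟨v, hVH hv⟩ * ⟨h, hh⟩⁻¹) = 1 := by
      rw [map_mul, map_mul, map_inv, (hker ⟨v, hVH hv⟩).2 hv]
      simp
    exact (hker _).1 h1
  have hVp : IsPGroup 2 V := by
    rintro ⟨v, hv⟩
    refine ⟨1, Subtype.ext ?_⟩
    show v ^ 2 ^ 1 = 1
    rw [pow_one, pow_two]; exact hV2 v hv
  have hV'n : (V.subgroupOf H).Normal := by
    constructor
    rintro ⟨v, hv⟩ hv' ⟨h, hh⟩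
    exact hVn h hh v hv'
  have hV'p : IsPGroup 2 (V.subgroupOf H) := hVp.comap_of_injective _ H.subtype_injective
  obtain ⟨x, hxH, hxV, g₀, v₀, hv₀, hxv⟩ := hx
  -- a Sylow subgroup of `H` containing `x`
  have hx2 : x * x = 1 := by
    rw [← hxv]
    calc g₀ * v₀ * g₀⁻¹ * (g₀ * v₀ * g₀⁻¹) = g₀ * (v₀ * v₀) * g₀⁻¹ := by group
      _ = 1 := by rw [hV2 v₀ hv₀]; group
  have hxp : IsPGroup 2 (Subgroup.zpowers (⟨x, hxH⟩ : H)) := by
    have := AltFus.isPGroup_sup_zpowers (p := 2) (H := (⊥ : Subgroup H)) (w := ⟨x, hxH⟩) (k := 1)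
      (IsPGroup.of_bot) (by
        apply Subtype.ext
        show x ^ 2 ^ 1 = 1
        rw [pow_one, pow_two, hx2]) (by
        intro y hy; rw [Subgroup.mem_bot] at hy; subst hy; exact Commute.one_left _)
    rwa [bot_sup_eq] at this
  obtain ⟨Q, hQ⟩ := hxp.exists_le_sylow
  have hVQ : V.subgroupOf H ≤ Q := hV'p.le_sylow_of_normal Q
  have hSp : IsPGroup 2 ((Q : Subgroup H).map H.subtype) := Q.isPGroup'.map _
  have hidx : ¬ 2 ∣ ((Q : Subgroup H).map H.subtype).index := by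
    rw [Subgroup.index_map_subtype, Nat.prime_two.dvd_mul]
    rintro (h | h)
    · exact Q.not_dvd_index h
    · exact hodd h
  let S₀ : Sylow 2 G := hSp.toSylow hidx
  have hS₀ : ∀ y : G, y ∈ (S₀ : Subgroup G) ↔ ∃ hy : y ∈ H, (⟨y, hy⟩ : H) ∈ (Q : Subgroup H) := by
    intro y
    constructor
    · rintro ⟨z, hz, rfl⟩
      exact ⟨z.2, hz⟩
    · rintro ⟨hy, hy'⟩
      exact ⟨⟨y, hy⟩, hy', rfl⟩
  have hS₀H : (S₀ : Subgroup G) ≤ H := fun y hy => ((hS₀ y).1 hy).choose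
  have hVS : V ≤ (S₀ : Subgroup G) := fun v hv =>
    (hS₀ v).2 ⟨hVH hv, hVQ (Subgroup.mem_subgroupOf.2 hv)⟩
  have hxS : x ∈ (S₀ : Subgroup G) := (hS₀ x).2 ⟨hxH, hQ (Subgroup.mem_zpowers _)⟩
  have hS1 : (S₀ : Subgroup G) ≠ ⊥ := by
    intro h
    apply hV1
    rw [eq_bot_iff, ← h]; exact hVS
  refine ⟨S₀, ?_⟩
  · -- strongly closed subgroups
    intro T hTS hT1 hT
    have hTn : ∀ s ∈ (S₀ : Subgroup G), ∀ t ∈ T, s * t * s⁻¹ ∈ T := fun s hs t ht =>
      hT t ht s (Subgroup.mul_mem _ (Subgroup.mul_mem _ hs (hTS ht)) (Subgroup.inv_mem _ hs))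
    have hTV : ∃ v ∈ T, v ∈ V ∧ v ≠ 1 := by
      by_contra hcon
      push Not at hcon
      apply hT1
      rw [eq_bot_iff]
      intro t ht
      have htV : t ∈ V := by
        apply hC t (hS₀H (hTS ht))
        intro v hv
        have h1 : v * t * v⁻¹ * t⁻¹ ∈ T := T.mul_mem (hTn v (hVS hv) t ht) (T.inv_mem ht)
        have h2 : v * t * v⁻¹ * t⁻¹ ∈ V := by
          have : v * t * v⁻¹ * t⁻¹ = v * (t * v⁻¹ * t⁻¹) := by group
          rw [this]
          exact V.mul_mem hv (hVn t (hS₀H (hTS ht)) _ (V.inv_mem hv))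
        have h3 := hcon _ h1 h2
        have h4 : v * t * v⁻¹ = t := mul_inv_eq_one.1 h3
        calc t * v = v * t * v⁻¹ * v := by rw [h4]
          _ = v * t := by group
      rw [Subgroup.mem_bot]
      exact hcon t ht htV
    obtain ⟨v, hvT, hvV, hv1⟩ := hTV
    have hVT : V ≤ T := by
      intro w hw
      by_cases hw1 : w = 1
      · rw [hw1]; exact T.one_mem
      obtain ⟨g, hg⟩ := hfus v hvV hv1 w hw hw1
      rw [← hg]
      exact hT v hvT g (by rw [hg]; exact hVS hw)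
    have hxT : x ∈ T := by
      rw [← hxv]
      exact hT v₀ (hVT hv₀) g₀ (by rw [hxv]; exact hxS)
    -- pass to the alternating group
    let Sb : Sylow 2 (alternatingGroup β) := Q.mapSurjective (f := ψ) hsurj
    have hSb : ∀ a, a ∈ (Sb : Subgroup (alternatingGroup β)) ↔ ∃ y ∈ (Q : Subgroup H), ψ y = a := by
      intro a
      have : (Sb : Subgroup (alternatingGroup β)) = (Q : Subgroup H).map ψ :=
        Sylow.coe_mapSurjective hsurj Q
      rw [this]; exact Iff.rfl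
    have hHA := hA 2 (α := β) (by omega) Sb
    have key := hHA ((T.subgroupOf H).map ψ) ?_ ?_ ?_
    · intro s hs
      obtain ⟨hsH, hsQ⟩ := (hS₀ s).1 hs
      obtain ⟨t, ht, hts⟩ := key ((hSb _).2 ⟨_, hsQ, rfl⟩)
      -- `s t⁻¹ ∈ V`
      have h1 : ψ (⟨s, hsH⟩ * t⁻¹) = 1 := by rw [map_mul, map_inv, hts]; simp
      have h2 := (hker _).1 h1
      have h3 : s = (s * (t : G)⁻¹) * t := by group
      rw [h3]
      exact T.mul_mem (hVT h2) (Subgroup.mem_subgroupOf.1 ht)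
    · rintro _ ⟨t, ht, rfl⟩
      exact (hSb _).2 ⟨t, ((hS₀ t).1 (hTS (Subgroup.mem_subgroupOf.1 ht))).choose_spec, rfl⟩
    · intro h
      have h1 : ψ ⟨x, hxH⟩ ∈ (T.subgroupOf H).map ψ := ⟨⟨x, hxH⟩, Subgroup.mem_subgroupOf.2 hxT, rfl⟩
      rw [h, Subgroup.mem_bot] at h1
      exact hxV ((hker _).1 h1)
    · rintro _ ⟨t, ht, rfl⟩ a ha
      obtain ⟨h, rfl⟩ := hsurj a
      obtain ⟨y, hy, hyt⟩ := (hSb _).1 ha
      -- `h t h⁻¹` lies in `S₀`
      have h1 : ψ (h * t * h⁻¹ * y⁻¹) = 1 := by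
        rw [map_mul _ (h * t * h⁻¹), map_inv, hyt, map_mul, map_mul, map_inv]; simp
      have h2 := (hker _).1 h1
      have h3 : ((h * t * h⁻¹ : H) : G) ∈ (S₀ : Subgroup G) := by
        have : ((h * t * h⁻¹ : H) : G) = ((h * t * h⁻¹ * y⁻¹ : H) : G) * (y : G) := by
          push_cast; group
        rw [this]
        exact Subgroup.mul_mem _ (hVS h2) ((hS₀ _).2 ⟨y.2, hy⟩)
      have h4 : ((h * t * h⁻¹ : H) : G) ∈ T := by
        have := hT (t : G) (Subgroup.mem_subgroupOf.1 ht) (h : G) (by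
          have h5 : (h : G) * (t : G) * (h : G)⁻¹ = ((h * t * h⁻¹ : H) : G) := by push_cast; rfl
          rw [h5]; exact h3)
        have h5 : (h : G) * (t : G) * (h : G)⁻¹ = ((h * t * h⁻¹ : H) : G) := by push_cast; rfl
        rwa [h5] at this
      exact ⟨h * t * h⁻¹, Subgroup.mem_subgroupOf.2 h4, by rw [map_mul, map_mul, map_inv]⟩

theorem ha_all {p : ℕ} [Fact p.Prime] {G : Type*} [Group G] [Finite G] (S₀ : Sylow p G) (h : HA (S₀ : Subgroup G))
    (S : Sylow p G) : HA (S : Subgroup G) := by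
  obtain ⟨e', he'⟩ := exists_equiv_map (MulEquiv.refl G) S₀ S
  rw [he']
  exact h.map e'

theorem pCentric_of {G : Type*} [Group G] [Finite G] {V : Subgroup G} (S : Sylow 2 G)
    (hVS : V ≤ (S : Subgroup G)) (hSV : (S : Subgroup G) ≤ Subgroup.normalizer (V : Set G))
    (hC : ∀ g ∈ (S : Subgroup G), (∀ v ∈ V, g * v = v * g) → g ∈ V) : PCentric 2 V := by
  intro x hx ⟨k, hk⟩
  have hxN : x ∈ Subgroup.normalizer (V : Set G) := Subgroup.centralizer_le_normalizer _ hx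
  have hp : IsPGroup 2 (Subgroup.zpowers x) := IsPGroup.of_card (n := k) (by rw [Nat.card_zpowers, hk])
  have hsyl : H38.Basic.IsSyl 2 (S : Subgroup G) (Subgroup.normalizer (V : Set G)) :=
    (H38.Basic.isSyl_sylow S).of_le hSV le_top
  obtain ⟨g, hg, hgx⟩ := hsyl.exists_conj_le hp (Subgroup.zpowers_le.2 hxN)
  have h1 : g * x * g⁻¹ ∈ (S : Subgroup G) := hgx ⟨x, Subgroup.mem_zpowers x, rfl⟩
  have h2 : g * x * g⁻¹ ∈ V := by
    apply hC _ h1
    intro v hv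
    have h3 : g⁻¹ * v * g ∈ V := by
      rw [Subgroup.mem_normalizer_iff.1 hg]
      convert hv using 1
      group
    have h4 := Subgroup.mem_centralizer_iff.1 hx _ h3
    calc g * x * g⁻¹ * v = g * (x * (g⁻¹ * v * g)) * g⁻¹ := by group
      _ = g * ((g⁻¹ * v * g) * x) * g⁻¹ := by rw [h4]
      _ = v * (g * x * g⁻¹) := by group
  exact (Subgroup.mem_normalizer_iff.1 hg x).2 h2

theorem hb_of {G : Type*} [Group G] [Finite G] {β : Type*} [Fintype β] [DecidableEq β]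
    (hβ : 6 ≤ Fintype.card β) (H V : Subgroup G) (hVH : V ≤ H)
    (ψ : H →* alternatingGroup β) (hker : ∀ h : H, ψ h = 1 ↔ (h : G) ∈ V)
    (hsurj : Function.Surjective ψ) (hV2 : ∀ v ∈ V, v * v = 1)
    (hC : ∀ g ∈ H, (∀ v ∈ V, g * v = v * g) → g ∈ V)
    (S₀ : Sylow 2 G) (hS₀H : (S₀ : Subgroup G) ≤ H)
    (hNH : Subgroup.normalizer ((S₀ : Subgroup G) : Set G) ≤ H) : HB 2 (S₀ : Subgroup G) := by
  -- `V` is normal in `H`
  have hVn : ∀ h ∈ H, ∀ v ∈ V, h * v * h⁻¹ ∈ V := by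
    intro h hh v hv
    have h1 : ψ (⟨h, hh⟩ * ⟨v, hVH hv⟩ * ⟨h, hh⟩⁻¹) = 1 := by
      rw [map_mul, map_mul, map_inv, (hker ⟨v, hVH hv⟩).2 hv]
      simp
    exact (hker _).1 h1
  have hVp : IsPGroup 2 V := by
    rintro ⟨v, hv⟩
    refine ⟨1, Subtype.ext ?_⟩
    show v ^ 2 ^ 1 = 1
    rw [pow_one, pow_two]; exact hV2 v hv
  have hHN : H ≤ Subgroup.normalizer (V : Set G) := fun s hs =>
    Subgroup.mem_normalizer_fintype fun v hv => hVn s hs v hv
  have hVS : V ≤ (S₀ : Subgroup G) := by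
    have h1 := S₀.is_maximal' (IsPGroup.to_sup_of_normal_right' S₀.isPGroup' hVp (hS₀H.trans hHN)) le_sup_left
    rw [← h1]
    exact le_sup_right
  have hCV : PCentric 2 V := pCentric_of S₀ hVS (hS₀H.trans hHN) (fun g hg => hC g (hS₀H hg))
  have hHop : H ≤ opN 2 V := by
    have hVop : V ≤ opN 2 V := le_opN_of_isPGroup Subgroup.le_normalizer hVp
    have h1 : (⊤ : Subgroup (alternatingGroup β)) ≤ ((opN 2 V).subgroupOf H).map ψ := by
      rw [← closure_sq (β := β) (by omega), Subgroup.closure_le]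
      intro a ha
      obtain ⟨h, rfl⟩ := hsurj a
      refine ⟨h, ?_, rfl⟩
      rw [SetLike.mem_coe, Subgroup.mem_subgroupOf]
      apply mem_opN (k := 2) (hHN h.2) _ Nat.prime_two
      have h2 : ψ (h ^ 2) = 1 := by rw [map_pow]; exact ha
      have h3 := hV2 _ ((hker _).1 h2)
      calc (h : G) ^ 2 ^ 2 = ((h ^ 2 : H) : G) * ((h ^ 2 : H) : G) := by
            push_cast; group
        _ = 1 := h3
    intro h hh
    obtain ⟨y, hy, hyh⟩ := h1 (Subgroup.mem_top (ψ ⟨h, hh⟩))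
    have h4 : ψ (⟨h, hh⟩ * y⁻¹) = 1 := by rw [map_mul, map_inv, hyh]; simp
    have h5 := (hker _).1 h4
    have h6 : h = (h * (y : G)⁻¹) * y := by group
    rw [h6]
    exact Subgroup.mul_mem _ (hVop h5) (Subgroup.mem_subgroupOf.1 hy)
  intro g hg
  refine Subgroup.subset_closure ⟨hg, V, hVS, hCV, ?_⟩
  exact Subgroup.mem_sup_left (hHop (hNH hg))

end H90.AltLift
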