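import Cfsg.Agent.Lib.H90.CSE3
set_option autoImplicit false

open Cfsg Cfsg.FusionSystem

namespace H90.CSE4
open H87.Base H87.Basic H87.Syl H87.Sat H87.Grow H87.Inv H87.Frat H87.Cut H87.PPow H87.Crit H87.PPr H87.NE H87.CMap
open H90.CSE1 H90.CSE2 H90.CSE3

variable {Ω : Type*} [Group Ω] {S T : Subgroup Ω} {F : FusionSystem S} {E D : FusionSystem T}
  {P Q R M U X A : Subgroup Ω} {f g h a b ρ χ : Ω → Ω} {p : ℕ}

/-- centric subgroups of `C_F(Q)` give centric subgroups of `F`. -/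
theorem sup_centric [Fact p.Prime] [Finite S] (hS : IsPGroup p S) (hF : F.IsSaturated p) (hQ : F.IsFullyNormalized Q)
    {C : FusionSystem (centralizerIn S Q)} (hC : F.IsCentralizerSystem Q C) (hR : C.IsCentric R) :
    F.IsCentric (Q ⊔ R) := by
  have hQS := hQ.1
  have hRV : R ≤ centralizerIn S Q := hR.1
  have hRS : R ≤ S := hRV.trans inf_le_left
  rw [H87.PPr.isCentric_iff] at hR ⊢
  refine ⟨sup_le hQS hRS, fun R' h hh c hc => ?_⟩
  have hhQ : IsIso F Q (img Q h) h := (hh.isMap.mono le_sup_left).isIso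
  obtain ⟨χ, hχ, hχi, hχm⟩ := H87.Bridge.exists_map_of_fn hS hF hQ (isConj_symm hhQ.isConj)
  have hQ'R' : img Q h ≤ R' := by rw [← hh.eq_img]; exact img_mono le_sup_left
  have hhR : ∀ r ∈ R, h r ∈ centralizerIn S (img Q h) := fun r hr =>
    map_centralizer hh.isMap le_sup_left hhQ (Subgroup.mem_sup_right hr) (hRV hr)
  have hQ'S : img Q h ≤ S := hhQ.le'
  have hle1 : ∀ x ∈ Q ⊔ R, h x ∈ normalizerIn S (img Q h) := by
    refine mem_of_sup hh.isMap (fun x hx => le_normalizerIn hQ'S (hhQ.mem hx)) fun x hx => ?_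
    exact centralizerIn_le_normalizerIn (hhR x hx)
  have hμ : IsMap F (Q ⊔ R) (χ ∘ h) := hh.isMap.comp hχ hle1
  have hμQ : IsIso F Q Q (χ ∘ h) := hhQ.comp hχi
  obtain ⟨m, hm, m1, m2⟩ := hμQ.symm
  have hQn := H87.Bridge.nice_of_fn hS hF hQ
  obtain ⟨ν, hν, eν⟩ := receptive_ext_centralizer hQn.2 hm
  have hνQ : IsIso F Q Q ν := hm.congr fun x hx => (eν x hx).symm
  have hμR : ∀ r ∈ R, (χ ∘ h) r ∈ centralizerIn S Q := fun r hr =>
    map_centralizer hχ (le_normalizerIn hQ'S) hχi (centralizerIn_le_normalizerIn (hhR r hr)) (hhR r hr)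
  have hνc : ∀ x ∈ centralizerIn S Q, ν x ∈ centralizerIn S Q := fun x hx =>
    map_centralizer hν le_sup_left hνQ (Subgroup.mem_sup_right hx) hx
  have hmem : ∀ x ∈ Q ⊔ R, (χ ∘ h) x ∈ Q ⊔ centralizerIn S Q :=
    mem_of_sup hμ (fun x hx => Subgroup.mem_sup_left (hμQ.mem hx)) fun x hx => Subgroup.mem_sup_right (hμR x hx)
  have hθ : IsMap F (Q ⊔ R) (ν ∘ (χ ∘ h)) := hμ.comp hν hmem
  have hθ' : IsMap F (R ⊔ Q) (ν ∘ (χ ∘ h)) := by rw [sup_comm]; exact hθ
  have hCM : CMap F Q R (ν ∘ (χ ∘ h)) := by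
    refine ⟨hRV, fun r hr => hνc _ (hμR r hr), _, hθ', fun _ _ => rfl, fun x hx => ?_⟩
    show ν ((χ ∘ h) x) = x
    rw [eν _ (hμQ.mem hx), m1 x hx]
  have hCM' := (isMap_centralizer_iff hC).2 hCM
  have h3 := hR.2 _ _ hCM'.isIso
  -- `c` centralizes `Q'` and `h R`
  have hc' := mem_centralizerIn.1 hc
  have hcQ' : c ∈ centralizerIn S (img Q h) := mem_centralizerIn.2 ⟨hc'.1, fun y hy => hc'.2 y (hQ'R' hy)⟩
  have hχc : χ c ∈ centralizerIn S Q :=
    map_centralizer hχ (le_normalizerIn hQ'S) hχi (centralizerIn_le_normalizerIn hcQ') hcQ'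
  have hcN := centralizerIn_le_normalizerIn hcQ'
  have hνχc : ν (χ c) ∈ centralizerIn (centralizerIn S Q) (img R (ν ∘ (χ ∘ h))) := by
    rw [mem_centralizerIn]
    refine ⟨hνc _ hχc, fun y hy => ?_⟩
    obtain ⟨r, hr, rfl⟩ := (mem_img hCM.isMap).1 hy
    show ν ((χ ∘ h) r) * ν (χ c) = ν (χ c) * ν ((χ ∘ h) r)
    have hrR' : h r ∈ R' := hh.mem (Subgroup.mem_sup_right hr)
    have hrN := centralizerIn_le_normalizerIn (hhR r hr)
    rw [← hν.map_mul (Subgroup.mem_sup_right (hμR r hr)) (Subgroup.mem_sup_right hχc),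
      ← hν.map_mul (Subgroup.mem_sup_right hχc) (Subgroup.mem_sup_right (hμR r hr))]
    show ν (χ (h r) * χ c) = ν (χ c * χ (h r))
    rw [← hχ.map_mul hrN hcN, ← hχ.map_mul hcN hrN, hc'.2 _ hrR']
  obtain ⟨r, hr, e⟩ := (mem_img hCM.isMap).1 (h3 hνχc)
  have e1 : χ (h r) = χ c := hν.inj (Subgroup.mem_sup_right (hμR r hr)) (Subgroup.mem_sup_right hχc) e
  have e2 : h r = c := hχ.inj (centralizerIn_le_normalizerIn (hhR r hr)) hcN e1
  rw [← e2]
  exact hh.mem (Subgroup.mem_sup_right hr)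

/-- `f` on `A ≤ C_S(Q)` extends to `N_T(Q) A`, acting trivially on `Q` and `N_T(Q)/Q`. -/
def WB (F : FusionSystem S) (T Q A : Subgroup Ω) (f : Ω → Ω) : Prop :=
  ∃ g, IsMap F (normalizerIn T Q ⊔ A) g ∧ (∀ x ∈ A, g x = f x) ∧ (∀ x ∈ Q, g x = x) ∧
    ∀ t ∈ normalizerIn T Q, t⁻¹ * g t ∈ Q

theorem WB.congr (h : WB F T Q A f) (e : ∀ x ∈ A, f x = g x) : WB F T Q A g := by
  obtain ⟨k, hk, k1, k2, k3⟩ := h
  exact ⟨k, hk, fun x hx => by rw [k1 x hx, e x hx], k2, k3⟩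

theorem WB.mono (h : WB F T Q A f) (hQ : X ≤ A) : WB F T Q X f := by
  obtain ⟨k, hk, k1, k2, k3⟩ := h
  exact ⟨k, hk.mono (sup_le_sup_left hQ _), fun x hx => k1 x (hQ hx), k2, k3⟩

theorem norm_mem_of (hQT : Q ≤ T) {t s : Ω} (ht : t ∈ normalizerIn T Q) (h : t⁻¹ * s ∈ Q) : s ∈ normalizerIn T Q := by
  have : s = t * (t⁻¹ * s) := by group
  rw [this]
  exact Subgroup.mul_mem _ ht (le_normalizerIn hQT h)

theorem WB.comp (hQT : Q ≤ T) (h1 : WB F T Q A f) (h2 : WB F T Q X g) (hf : ∀ x ∈ A, f x ∈ X) :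
    WB F T Q A (g ∘ f) := by
  obtain ⟨k, hk, k1, k2, k3⟩ := h1
  obtain ⟨l, hl, l1, l2, l3⟩ := h2
  have hkN : ∀ t ∈ normalizerIn T Q, k t ∈ normalizerIn T Q := fun t ht => norm_mem_of hQT ht (k3 t ht)
  refine ⟨l ∘ k, hk.comp hl (mem_of_sup hk (fun x hx => ?_) fun x hx => ?_), fun x hx => ?_, fun x hx => ?_,
    fun t ht => ?_⟩
  · exact Subgroup.mem_sup_left (hkN x hx)
  · rw [k1 x hx]; exact Subgroup.mem_sup_right (hf x hx)
  · show l (k x) = _
    rw [k1 x hx, l1 _ (hf x hx)]; rfl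
  · show l (k x) = _
    rw [k2 x hx, l2 x hx]
  · show t⁻¹ * l (k t) ∈ Q
    have : t⁻¹ * l (k t) = (t⁻¹ * k t) * ((k t)⁻¹ * l (k t)) := by group
    rw [this]
    exact Q.mul_mem (k3 t ht) (l3 _ (hkN t ht))

theorem WB.symm [Finite S] (hQT : Q ≤ T) (hTS : T ≤ S) (h1 : WB F T Q A f) (hg : ∀ x ∈ A, g (f x) = x)
    (hX : ∀ y ∈ X, ∃ x ∈ A, f x = y) : WB F T Q X g := by
  obtain ⟨k, hk, k1, k2, k3⟩ := h1
  obtain ⟨l, hl, l1, l2⟩ := hk.isIso.symm
  have hkN : ∀ t ∈ normalizerIn T Q, k t ∈ normalizerIn T Q := fun t ht => norm_mem_of hQT ht (k3 t ht)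
  have hkNi : IsIso F (normalizerIn T Q) (normalizerIn T Q) k :=
    H87.ConstrEq.isIso_of_self (hk.mono le_sup_left) hkN
  have hle : normalizerIn T Q ⊔ X ≤ img (normalizerIn T Q ⊔ A) k := by
    refine sup_le (fun y hy => ?_) fun y hy => ?_
    · obtain ⟨x, hx, rfl⟩ := hkNi.surj hy
      exact apply_mem_img (Subgroup.mem_sup_left hx)
    · obtain ⟨x, hx, rfl⟩ := hX y hy
      rw [← k1 x hx]
      exact apply_mem_img (Subgroup.mem_sup_right hx)
  refine ⟨l, hl.isMap.mono hle, fun y hy => ?_, fun x hx => ?_, fun t ht => ?_⟩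
  · obtain ⟨x, hx, rfl⟩ := hX y hy
    rw [hg x hx, ← k1 x hx, l1 x (Subgroup.mem_sup_right hx)]
  · have := l1 x (Subgroup.mem_sup_left (le_normalizerIn hQT hx))
    rwa [k2 x hx] at this
  · obtain ⟨s, hs, rfl⟩ := hkNi.surj ht
    rw [l1 s (Subgroup.mem_sup_left hs)]
    have := Q.inv_mem (k3 s hs)
    rwa [mul_inv_rev, inv_inv] at this

/-- automorphisms of nice centric subgroups of `C_F(Q)` extend to `N_T(Q)`. -/
theorem ext_norm [Fact p.Prime] [Finite S] (hS : IsPGroup p S) (hF : F.IsSaturated p) (hQ : F.IsFullyNormalized Q)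
    (hT : F.StronglyClosed T) (hQt : TC F T Q)
    {C : FusionSystem (centralizerIn S Q)} (hC : F.IsCentralizerSystem Q C) (hR : IsNice C p R)
    (hRc : C.IsCentric R) (hf : IsIso C R R f) : WB F T Q R f := by
  have hTS := hT.1
  have hQT := hQt.1
  have hQS := hQT.trans hTS
  have hRV : R ≤ centralizerIn S Q := hRc.1
  have hRS : R ≤ S := hRV.trans inf_le_left
  have hRfin : Finite R := finite_of_le hRS
  have hQfin : Finite Q := finite_of_le hQS
  have hVfin : Finite ↥(centralizerIn S Q) := finite_of_le inf_le_left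
  have hVp : IsPGroup p ↥(centralizerIn S Q) := hS.to_le inf_le_left
  have hM := sup_centric hS hF hQ hC hRc
  have hMr := H87.PPr.receptive_of_centric hS hF hM
  have hMS : Q ⊔ R ≤ S := sup_le hQS hRS
  have hMfin : Finite ↥(Q ⊔ R) := finite_of_le hMS
  obtain ⟨-, -, δ, hδ, d1, d2⟩ := (isMap_centralizer_iff hC).1 hf.isMap
  rw [sup_comm] at hδ
  have hδm : ∀ x ∈ Q ⊔ R, δ x ∈ Q ⊔ R :=
    mem_of_sup hδ (fun x hx => by rw [d2 x hx]; exact Subgroup.mem_sup_left hx)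
      fun x hx => by rw [d1 x hx]; exact Subgroup.mem_sup_right (hf.mem hx)
  have hδi : IsIso F (Q ⊔ R) (Q ⊔ R) δ := H87.ConstrEq.isIso_of_self hδ hδm
  obtain ⟨ε, hε, ε1, ε2⟩ := hδi.symm
  have hεQ : ∀ x ∈ Q, ε x = x := fun x hx => by
    have := ε1 x (Subgroup.mem_sup_left hx)
    rwa [d2 x hx] at this
  have hεR : ∀ x ∈ R, ε x ∈ R := fun x hx => by
    obtain ⟨y, hy, rfl⟩ := hf.surj hx
    rw [← d1 y hy, ε1 y (Subgroup.mem_sup_right hy)]; exact hy
  -- `Z = Z(Q)` lies in `R`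
  set Z : Subgroup Ω := Q ⊓ centralizerIn S Q with hZ
  have hZR : Z ≤ R := by
    intro z hz
    refine (H87.PPr.isCentric_iff.1 hRc).2 R _ (isIso_id C hRV) (mem_centralizerIn.2 ⟨hz.2, fun y hy => ?_⟩)
    exact (comm_of_cent hz.1 (hRV hy)).symm
  have hZfin : Finite Z := finite_of_le (hZR.trans hRS)
  have hZp : IsPGroup p Z := hS.to_le (hZR.trans hRS)
  -- the normal `p`-subgroup
  have hCQ : ∀ {B : Subgroup Ω} {k : Ω → Ω}, IsMap C B k → ∀ x ∈ B, x ∈ Q → k x = x := by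
    intro B k hk x hx hxQ
    obtain ⟨-, -, k', hk', e1, e2⟩ := (isMap_centralizer_iff hC).1 hk
    rw [← e1 x hx, e2 x hxQ]
  have hKn := stb_normal (F := C) (M := R) (P := Z) (hPM := hZR) fun a ha x hx => by
    have := hCQ (fn_iso hRV ha).isMap x (hZR hx) hx.1
    rw [this]; exact hx
  have hKle : stb R Z hZR ⊓ C.autGroup R ≤ autInducedBy (centralizerIn S Q) R := by
    have hfinA : Finite (MulAut R) := finite_mulAut
    exact sylIn_normal_le (isFullyAutomized_iff.1 hR.1).2 inf_le_right hKn ((stb_isPGroup hZp).to_le inf_le_left)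
  -- `N_T(Q)` normalizes `Q R` and lies in the extender
  have hcomm : ∀ t ∈ normalizerIn T Q, ∀ r ∈ R, r⁻¹ * (t * r * t⁻¹) ∈ Z := by
    intro t ht r hr
    refine ⟨comm_mem hT hQt ht (hRV hr), Subgroup.mul_mem _ (Subgroup.inv_mem _ (hRV hr)) ?_⟩
    rw [mem_centralizerIn]
    refine ⟨S.mul_mem (S.mul_mem (hTS ht.1) (hRS hr)) (S.inv_mem (hTS ht.1)), fun y hy => ?_⟩
    have h1 : t⁻¹ * y * t ∈ Q := by
      have := conj_mem_of_mem_normalizer (Subgroup.inv_mem _ ht.2) hy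
      rwa [inv_inv] at this
    have h2 := comm_of_cent h1 (hRV hr)
    calc y * (t * r * t⁻¹) = t * ((t⁻¹ * y * t) * r) * t⁻¹ := by group
      _ = t * (r * (t⁻¹ * y * t)) * t⁻¹ := by rw [h2]
      _ = _ := by group
  have hnormR : ∀ t ∈ normalizerIn T Q, ∀ r ∈ R, t * r * t⁻¹ ∈ R := by
    intro t ht r hr
    have : t * r * t⁻¹ = r * (r⁻¹ * (t * r * t⁻¹)) := by group
    rw [this]
    exact R.mul_mem hr (hZR (hcomm t ht r hr))
  have hnormM : ∀ t ∈ normalizerIn T Q, t ∈ Subgroup.normalizer ((Q ⊔ R : Subgroup Ω) : Set Ω) := by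
    intro t ht
    rw [mem_normalizer_iff_of_finite]
    have hconj : IsMap F (Q ⊔ R) (fun x => t * x * t⁻¹) := isMap_conj F hMS (hTS ht.1)
    exact mem_of_sup hconj (fun x hx => Subgroup.mem_sup_left (conj_mem_of_mem_normalizer ht.2 hx))
      fun x hx => Subgroup.mem_sup_right (hnormR t ht x hx)
  have hext : normalizerIn T Q ≤ nphi S (Q ⊔ R) δ := by
    intro t ht
    have hti : t⁻¹ ∈ normalizerIn T Q := Subgroup.inv_mem _ ht
    -- the commutator map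
    have hκ : IsMap F (Q ⊔ R) (fun x => δ (t * ε (t⁻¹ * x * t) * t⁻¹)) := by
      have c1 : IsMap F (Q ⊔ R) (fun x => t⁻¹ * x * t⁻¹⁻¹) := isMap_conj F hMS (S.inv_mem (hTS ht.1))
      have c2 : IsMap F (Q ⊔ R) (fun x => t * x * t⁻¹) := isMap_conj F hMS (hTS ht.1)
      have m1 : ∀ x ∈ Q ⊔ R, t⁻¹ * x * t⁻¹⁻¹ ∈ Q ⊔ R := fun x hx => conj_mem_of_mem_normalizer (hnormM _ hti) hx
      have m2 : ∀ x ∈ Q ⊔ R, t * x * t⁻¹ ∈ Q ⊔ R := fun x hx => conj_mem_of_mem_normalizer (hnormM _ ht) hx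
      refine ((((c1.comp hε.isMap m1).comp c2 fun x hx => hε.mem (m1 x hx)).comp hδ fun x hx =>
        m2 _ (hε.mem (m1 x hx)))).congr fun x hx => ?_
      simp only [Function.comp_apply, inv_inv]
    have hκQ : ∀ x ∈ Q, (fun x => δ (t * ε (t⁻¹ * x * t) * t⁻¹)) x = x := by
      intro x hx
      have h1 : t⁻¹ * x * t ∈ Q := by
        have := conj_mem_of_mem_normalizer hti.2 hx
        rwa [inv_inv] at this
      show δ (t * ε (t⁻¹ * x * t) * t⁻¹) = x
      have h2 : t * (t⁻¹ * x * t) * t⁻¹ = x := by group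
      rw [hεQ _ h1, h2, d2 x hx]
    have hκR : ∀ x ∈ R, x⁻¹ * (fun x => δ (t * ε (t⁻¹ * x * t) * t⁻¹)) x ∈ Z := by
      intro x hx
      show x⁻¹ * δ (t * ε (t⁻¹ * x * t) * t⁻¹) ∈ Z
      have h1 := hcomm t⁻¹ hti x hx
      rw [inv_inv] at h1
      have e1 : t⁻¹ * x * t = x * (x⁻¹ * (t⁻¹ * x * t)) := by group
      generalize x⁻¹ * (t⁻¹ * x * t) = z at h1 e1
      have hzM : z ∈ Q ⊔ R := Subgroup.mem_sup_left h1.1
      have hεx := hεR x hx
      rw [e1, hε.isMap.map_mul (Subgroup.mem_sup_right hx) hzM, hεQ z h1.1]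
      have h2 := hcomm t ht _ hεx
      have e2 : t * (ε x * z) * t⁻¹ = ε x * ((ε x)⁻¹ * (t * ε x * t⁻¹)) * (t * z * t⁻¹) := by group
      have h3 : t * z * t⁻¹ ∈ Z := by
        have h4 := hcomm t ht z (hZR h1)
        have : t * z * t⁻¹ = z * (z⁻¹ * (t * z * t⁻¹)) := by group
        rw [this]
        exact Z.mul_mem h1 h4
      generalize (ε x)⁻¹ * (t * ε x * t⁻¹) = w at h2 e2
      generalize t * z * t⁻¹ = w' at h3 e2
      rw [e2, mul_assoc, hδ.map_mul (Subgroup.mem_sup_right hεx) (Subgroup.mem_sup_left (Z.mul_mem h2 h3).1),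
        ε2 x (Subgroup.mem_sup_right hx), d2 _ (Z.mul_mem h2 h3).1, ← mul_assoc, inv_mul_cancel, one_mul]
      exact Z.mul_mem h2 h3
    have hκRm : ∀ x ∈ R, (fun x => δ (t * ε (t⁻¹ * x * t) * t⁻¹)) x ∈ R := by
      intro x hx
      have := hZR (hκR x hx)
      have h2 := R.mul_mem hx this
      rwa [← mul_assoc, mul_inv_cancel, one_mul] at h2
    have hκC : IsMap C R (fun x => δ (t * ε (t⁻¹ * x * t) * t⁻¹)) := by
      refine (isMap_centralizer_iff hC).2 ⟨hRV, fun x hx => hRV (hκRm x hx), _, ?_, fun _ _ => rfl, hκQ⟩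
      rw [sup_comm]; exact hκ
    have hκi : IsIso C R R (fun x => δ (t * ε (t⁻¹ * x * t) * t⁻¹)) := H87.ConstrEq.isIso_of_self hκC hκRm
    have hκm : hκi.aut ∈ stb R Z hZR ⊓ C.autGroup R := by
      refine ⟨mem_stb.2 ⟨fun x hx => ?_, fun x hx => ?_⟩, hκi.aut_mem⟩
      · rw [fn_aut hκi (hZR hx)]; exact hκQ x hx.1
      · rw [fn_aut hκi hx]; exact hκR x hx
    obtain ⟨v, hv, ev⟩ := fn_autInduced (hKle hκm)
    have hvS : v ∈ S := hv.1
    have hval : ∀ x ∈ Q ⊔ R, δ (t * ε (t⁻¹ * x * t) * t⁻¹) = v * x * v⁻¹ := by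
      refine eq_on_sup hκ (isMap_conj F hMS hvS) (fun x hx => ?_) fun x hx => ?_
      · refine (hκQ x hx).trans ?_
        have := comm_of_cent hx hv
        show x = v * x * v⁻¹
        rw [← this]; group
      · rw [← ev x hx, fn_aut hκi hx]
    refine mem_nphi.2 ⟨hTS ht.1, hnormM t ht, v * t, S.mul_mem hvS (hTS ht.1), fun x hx => ?_⟩
    have h1 : t * δ x * t⁻¹ ∈ Q ⊔ R := conj_mem_of_mem_normalizer (hnormM _ ht) (hδm x hx)
    have h2 := hval _ h1
    have h3 : t⁻¹ * (t * δ x * t⁻¹) * t = δ x := by group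
    rw [h3, ε1 x hx] at h2
    rw [h2]; group
  obtain ⟨g, hg, eg⟩ := (isReceptive_iff.1 hMr).2 _ _ hδi
  have hle : normalizerIn T Q ⊔ R ≤ nphi S (Q ⊔ R) δ := sup_le hext (le_sup_right.trans (le_nphi hδi.isMap))
  refine ⟨g, hg.mono hle, fun x hx => by rw [eg x (Subgroup.mem_sup_right hx), d1 x hx],
    fun x hx => by rw [eg x (Subgroup.mem_sup_left hx), d2 x hx], fun t ht => ?_⟩
  have hgt : g t ∈ T := mem_of_stronglyClosed hT hg (hext ht) ht.1
  refine hQt.mem hTS (T.mul_mem (T.inv_mem ht.1) hgt) fun x hx => ?_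
  have h1 : t * x * t⁻¹ ∈ Q := conj_mem_of_mem_normalizer ht.2 hx
  have hQn : Q ≤ nphi S (Q ⊔ R) δ := le_sup_left.trans (le_nphi hδi.isMap)
  have hgQ : ∀ y ∈ Q, g y = y := fun y hy => by rw [eg y (Subgroup.mem_sup_left hy), d2 y hy]
  have h2 := hg.map_conj (hext ht) (hQn hx)
  rw [hgQ _ h1, hgQ x hx] at h2
  calc x * (t⁻¹ * g t) = t⁻¹ * (t * x * t⁻¹) * g t := by group
    _ = t⁻¹ * (g t * x * (g t)⁻¹) * g t := by rw [h2]
    _ = _ := by group

/-- Lemma B: maps of `C_F(Q)` extend to `N_T(Q)`. -/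
theorem wb_all [Fact p.Prime] [Finite S] (hS : IsPGroup p S) (hF : F.IsSaturated p) (hQ : F.IsFullyNormalized Q)
    (hT : F.StronglyClosed T) (hQt : TC F T Q)
    {C : FusionSystem (centralizerIn S Q)} (hC : F.IsCentralizerSystem Q C) :
    ∀ A f, A ≤ centralizerIn S Q → IsMap C A f → WB F T Q A f := by
  have hTS := hT.1
  have hQT := hQt.1
  have hVfin : Finite ↥(centralizerIn S Q) := finite_of_le inf_le_left
  have hVp : IsPGroup p ↥(centralizerIn S Q) := hS.to_le inf_le_left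
  have hCs := H89.KSat3.centralizer_saturated hS hF
    (H86.FusSat.fullyCentralized_of_receptive F (H87.Bridge.nice_of_fn hS hF hQ).2) hC
  refine alp hVp hCs stronglyClosed_top (WB F T Q) (fun P f g _ _ e h => h.congr e)
    (fun P Q f _ _ h1 h => h.mono h1) (fun P Q f g _ h1 _ h3 h4 => h3.comp hQT h4 fun x hx => h1.mem hx)
    (fun P Q f g _ h1 _ h2 _ h4 => h4.symm hQT hTS h2 fun y hy => h1.surj hy) ?_ ?_
  · intro f hf
    have hc : C.IsCentric (centralizerIn S Q) := by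
      rw [H87.PPr.isCentric_iff]
      refine ⟨le_rfl, fun R g hg => ?_⟩
      have : R = centralizerIn S Q := by
        rw [← hg.eq_img]; exact (StronglyClosed.isMap_iso stronglyClosed_top hg.isMap le_rfl).eq_img
      rw [this]; exact inf_le_left
    exact ext_norm hS hF hQ hT hQt hC (H87.Bridge.nice_of_fn hVp hCs (H86.FusSat.fullyNormalized_self C)) hc hf
  · intro R hRV hRne hR hIH f hf
    by_cases hc : C.IsCentric R
    · exact ext_norm hS hF hQ hT hQt hC hR hc hf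
    · obtain ⟨c, hc1, hc2⟩ := exists_centralizer hVp hR hc
      obtain ⟨g, hg, eg⟩ := receptive_ext_centralizer hR.2 hf
      have hle : R ⊔ centralizerIn (centralizerIn S Q) R ≤ centralizerIn S Q := sup_le hRV inf_le_left
      have hlt : R < R ⊔ centralizerIn (centralizerIn S Q) R := lt_of_le_of_ne le_sup_left fun h => hc2 (by
        rw [h]; exact Subgroup.mem_sup_right hc1)
      have h1 := hIH _ g hle (card_lt' hle hlt) hg
      exact (h1.mono le_sup_left).congr eg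

end H90.CSE4
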