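import Cfsg.Agent.Lib.H90.CSE4
set_option autoImplicit false

open Cfsg Cfsg.FusionSystem

namespace H90.CSE5
open H87.Base H87.Basic H87.Syl H87.Sat H87.Grow H87.Inv H87.Frat H87.Cut H87.PPow H87.Crit H87.PPr H87.NE H87.CMap
open H90.CSE1 H90.CSE2 H90.CSE3 H90.CSE4

variable {Ω : Type*} [Group Ω] {S T : Subgroup Ω} {F : FusionSystem S} {E D : FusionSystem T}
  {P Q R M U X A : Subgroup Ω} {f g h a b ρ χ : Ω → Ω} {p : ℕ}

theorem CS_le_S (hTS : T ≤ S) : CS F E p ≤ S := CS_le.trans inf_le_left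

/-- image of a subgroup of `C_S(E)` under a map defined on `T` too. -/
theorem CS_img [Fact p.Prime] [Finite S] (hS : IsPGroup p S) (hE : E.IsNormalIn F p) (hX : X ≤ CS F E p)
    (hg : IsMap F (T ⊔ X) g) : ∀ x ∈ X, g x ∈ CS F E p := by
  have hw : E.IsWeaklyNormalIn F p := hE.1
  have hF := hw.2.1
  have hinv := hw.2.2
  have hT := hinv.2.1
  have hTS := hT.1
  have hI := sinv_of_invariant hinv
  have hA := hI.ainv
  have hgT : IsIso F T T g := StronglyClosed.isMap_iso hT hg le_sup_left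
  obtain ⟨l, hl, l1, l2⟩ := hg.isIso.symm
  have hTimg : T ≤ img (T ⊔ X) g := by
    intro y hy
    obtain ⟨x, hx, rfl⟩ := hgT.surj hy
    exact apply_mem_img (Subgroup.mem_sup_left hx)
  have hlT : IsIso F T T l := by
    refine (hl.isMap.mono hTimg).isIso_of (fun y hy => ?_) fun x hx => ?_
    · obtain ⟨x, hx, rfl⟩ := hgT.surj hy
      rw [l1 x (Subgroup.mem_sup_left hx)]; exact hx
    · exact ⟨g x, hgT.mem hx, l1 x (Subgroup.mem_sup_left hx)⟩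
  have hgX : IsMap F X g := hg.mono le_sup_right
  have hX'img : img X g ≤ img (T ⊔ X) g := img_mono le_sup_right
  have hlX : ∀ y ∈ img X g, l y ∈ X := by
    intro y hy
    obtain ⟨x, hx, rfl⟩ := (mem_img hgX).1 hy
    rw [l1 x (Subgroup.mem_sup_right hx)]; exact hx
  suffices h : img X g ≤ CS F E p from fun x hx => h (apply_mem_img hx)
  have hXC : X ≤ centralizerIn S T := hX.trans CS_le
  have hX'C : img X g ≤ centralizerIn S T := by
    intro y hy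
    obtain ⟨x, hx, rfl⟩ := (mem_img hgX).1 hy
    exact map_centralizer hg le_sup_left hgT (Subgroup.mem_sup_right hx) (hXC hx)
  refine le_CS_of hS hF hI hT hX'C fun P e he => ?_
  have hPT : P ≤ T := he.le
  obtain ⟨e', he', ee⟩ := hA P e l he hlT
  obtain ⟨k, hk, k1, k2⟩ := wx_all hS hE _ _ he'.le he'
  have hlP : ∀ y ∈ P ⊔ img X g, l y ∈ img P l ⊔ CS F E p := by
    have hm : IsMap F (P ⊔ img X g) l := hl.isMap.mono (sup_le (hPT.trans hTimg) hX'img)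
    exact mem_of_sup hm (fun y hy => Subgroup.mem_sup_left (apply_mem_img hy))
      fun y hy => Subgroup.mem_sup_right (hX (hlX y hy))
  have hlm : IsMap F (P ⊔ img X g) l := hl.isMap.mono (sup_le (hPT.trans hTimg) hX'img)
  have h1 : IsMap F (P ⊔ img X g) (k ∘ l) := hlm.comp hk hlP
  have v1 : ∀ y ∈ P, (k ∘ l) y = l (e y) := fun y hy => by
    show k (l y) = _
    rw [k1 _ (apply_mem_img hy), ee y hy]
  have v2 : ∀ y ∈ img X g, (k ∘ l) y = l y := fun y hy => k2 _ (hX (hlX y hy))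
  have hm2 : ∀ y ∈ P ⊔ img X g, (k ∘ l) y ∈ T ⊔ X := by
    refine mem_of_sup h1 (fun y hy => ?_) fun y hy => ?_
    · rw [v1 y hy]; exact Subgroup.mem_sup_left (hlT.mem (he.mem hy))
    · rw [v2 y hy]; exact Subgroup.mem_sup_right (hlX y hy)
  have hcomm : ∀ {z : Ω}, z ∈ T → z ∈ centralizerIn S (img X g) := fun {z} hz =>
    mem_centralizerIn.2 ⟨hTS hz, fun y hy => ((mem_centralizerIn.1 (hX'C hy)).2 z hz).symm⟩
  refine ⟨fun y hy => hcomm (hPT hy), fun y hy => hcomm (he.mem hy), g ∘ (k ∘ l), h1.comp hg hm2,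
    fun y hy => ?_, fun y hy => ?_⟩
  · show g ((k ∘ l) y) = _
    rw [v1 y hy, l2 _ (hTimg (he.mem hy))]
  · show g ((k ∘ l) y) = _
    rw [v2 y hy, l2 _ (hX'img hy)]

theorem comp_T (hT : F.StronglyClosed T) {X' : Subgroup Ω} (hf : IsMap F (T ⊔ X) f)
    (hX' : ∀ x ∈ X, f x ∈ X') (hg : IsMap F (T ⊔ X') g) : IsMap F (T ⊔ X) (g ∘ f) := by
  refine hf.comp hg (mem_of_sup hf (fun x hx => ?_) fun x hx => Subgroup.mem_sup_right (hX' x hx))
  exact Subgroup.mem_sup_left (mem_of_stronglyClosed hT hf (Subgroup.mem_sup_left hx) hx)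

theorem TC.norm (hP : TC F T P) : TC F T (normalizerIn T P) := hP.up (le_normalizerIn hP.1) normalizerIn_le

/-- maps on `P X` with `P` large in `T` and `X ≤ C_S(E)` extend to `T X` on `X`. -/
theorem ext_T [Fact p.Prime] [Finite S] (hS : IsPGroup p S) (hE : E.IsNormalIn F p) :
    ∀ n : ℕ, ∀ P X h, TC F T P → Nat.card T - Nat.card P = n → X ≤ CS F E p → IsMap F (P ⊔ X) h →
      ∃ g, IsMap F (T ⊔ X) g ∧ ∀ x ∈ X, g x = h x := by
  have hw : E.IsWeaklyNormalIn F p := hE.1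
  have hEs := hw.1
  have hF := hw.2.1
  have hinv := hw.2.2
  have hEF := hinv.1
  have hT := hinv.2.1
  have hTS := hT.1
  have hI := sinv_of_invariant hinv
  have hTfin : Finite T := finite_of_le hTS
  have hTp : IsPGroup p T := hS.to_le hTS
  intro n
  induction n using Nat.strong_induction_on with
  | _ n ih =>
  intro P X h hP hn hX hh
  have hPS := hP.1.trans hTS
  have hXC : X ≤ centralizerIn S T := hX.trans CS_le
  rcases eq_or_lt_of_le hP.1 with hPT | hPT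
  · rw [hPT] at hh
    exact ⟨h, hh, fun _ _ => rfl⟩
  have hcard : Nat.card P < Nat.card T := card_lt' hTS hPT
  -- an extension to anything larger is enough
  have key : ∀ P' Y k, TC F T P' → Nat.card P < Nat.card P' → Y ≤ CS F E p → IsMap F (P' ⊔ Y) k →
      ∃ g, IsMap F (T ⊔ Y) g ∧ ∀ x ∈ Y, g x = k x := by
    intro P' Y k hP' hc hY hk
    have h1 : Nat.card P' ≤ Nat.card T := Nat.card_le_card_of_injective _ (Subgroup.inclusion_injective hP'.1)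
    exact ih _ (by omega) P' Y k hP' rfl hY hk
  have hNgt : ∀ P', TC F T P' → Nat.card P' = Nat.card P → Nat.card P < Nat.card (normalizerIn T P') := by
    intro P' hP' hc
    have hlt : P' < T := lt_of_le_of_ne hP'.1 fun e => by rw [e] at hc; omega
    rw [← hc]
    exact card_lt' (normalizerIn_le.trans hTS) (lt_normalizerIn hTp hlt)
  have hP₂ : IsIso F P (img P h) h := (hh.mono le_sup_left).isIso
  have hP₂t : TC F T (img P h) := hP.conj hT hP₂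
  obtain ⟨Q, hPQ, hQn⟩ := exists_nice hF hPS
  have hQ := H87.Bridge.fn_of_nice hS hQn
  have hQS := hQ.1
  obtain ⟨χ₁, hχ₁, hi₁, hm₁⟩ := H87.Bridge.exists_map_of_fn hS hF hQ hPQ
  obtain ⟨χ₂, hχ₂, hi₂, hm₂⟩ := H87.Bridge.exists_map_of_fn hS hF hQ (isConj_trans (isConj_symm hP₂.isConj) hPQ)
  have hQt : TC F T Q := hP.conj hT hi₁
  have hQT := hQt.1
  have hcQ : Nat.card Q = Nat.card P := hi₁.card_eq.symm
  have hP₂S : img P h ≤ S := hP₂.le'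
  -- step 1
  have hXN : X ≤ normalizerIn S P := (hXC.trans (centT_le hP.1)).trans centralizerIn_le_normalizerIn
  have hNTS : ∀ P', normalizerIn T P' ≤ normalizerIn S P' := fun P' => inf_le_inf_right _ hTS
  obtain ⟨g₁, hg₁, e₁⟩ := key _ X χ₁ (TC.norm hP) (hNgt P hP rfl) hX (hχ₁.mono (sup_le (hNTS P) hXN))
  have hX₁ : ∀ x ∈ X, χ₁ x ∈ CS F E p := fun x hx => by rw [← e₁ x hx]; exact CS_img hS hE hX hg₁ x hx
  have hχ₁X : IsMap F X χ₁ := hχ₁.mono hXN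
  have hX₁le : img X χ₁ ≤ CS F E p := by
    intro y hy
    obtain ⟨x, hx, rfl⟩ := (mem_img hχ₁X).1 hy
    exact hX₁ x hx
  -- step 2
  have hPXN : P ⊔ X ≤ normalizerIn S P := sup_le (le_normalizerIn hPS) hXN
  have hχ₁PX : IsMap F (P ⊔ X) χ₁ := hχ₁.mono hPXN
  obtain ⟨l₁, hl₁, l11, l12⟩ := hχ₁PX.isIso.symm
  have hhX : ∀ x ∈ X, h x ∈ centralizerIn S (img P h) := fun x hx =>
    map_centralizer hh le_sup_left hP₂ (Subgroup.mem_sup_right hx) (centT_le hP.1 (hXC hx))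
  have hhN : ∀ x ∈ P ⊔ X, h x ∈ normalizerIn S (img P h) :=
    mem_of_sup hh (fun x hx => le_normalizerIn hP₂S (hP₂.mem hx)) fun x hx => centralizerIn_le_normalizerIn (hhX x hx)
  have hQX₁ : Q ⊔ img X χ₁ ≤ img (P ⊔ X) χ₁ := by
    refine sup_le ?_ (img_mono le_sup_right)
    rw [← hi₁.eq_img]; exact img_mono le_sup_left
  have hl₁m : ∀ y ∈ Q ⊔ img X χ₁, l₁ y ∈ P ⊔ X := fun y hy => hl₁.mem (hQX₁ hy)
  have hhl : IsMap F (Q ⊔ img X χ₁) (h ∘ l₁) := (hl₁.isMap.mono hQX₁).comp hh hl₁m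
  have hκ : IsMap F (Q ⊔ img X χ₁) (χ₂ ∘ (h ∘ l₁)) := hhl.comp hχ₂ fun y hy => hhN _ (hl₁m y hy)
  have hκX : ∀ x ∈ X, (χ₂ ∘ (h ∘ l₁)) (χ₁ x) = χ₂ (h x) := fun x hx => by
    show χ₂ (h (l₁ (χ₁ x))) = _
    rw [l11 x (Subgroup.mem_sup_right hx)]
  have hκP : ∀ x ∈ P, (χ₂ ∘ (h ∘ l₁)) (χ₁ x) = χ₂ (h x) := fun x hx => by
    show χ₂ (h (l₁ (χ₁ x))) = _
    rw [l11 x (Subgroup.mem_sup_left hx)]
  have hκQ : IsIso F Q Q (χ₂ ∘ (h ∘ l₁)) := by
    refine (hκ.mono le_sup_left).isIso_of (fun y hy => ?_) fun y hy => ?_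
    · obtain ⟨x, hx, rfl⟩ := hi₁.surj hy
      rw [hκP x hx]; exact hi₂.mem (hP₂.mem hx)
    · obtain ⟨z, hz, rfl⟩ := hi₂.surj hy
      obtain ⟨x, hx, rfl⟩ := hP₂.surj hz
      exact ⟨χ₁ x, hi₁.mem hx, hκP x hx⟩
  generalize χ₂ ∘ (h ∘ l₁) = κ at hκ hκX hκP hκQ
  -- step 3: Frattini
  have hEaut := autGroup_mono hEF Q
  have hQfin : Finite Q := finite_of_le hQS
  have hAn := hI.aut_normal hTS hEF hQT
  obtain ⟨k, hk, hkD⟩ := hQn.frattini hEaut hAn hκQ.aut_mem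
  obtain ⟨ψ, hψ, eψ⟩ := hkD (normalizerIn T Q ⊔ centralizerIn S Q) (sup_le (normalizerIn_le.trans hTS) inf_le_left) (by
    intro d hd
    have hnc : ∀ x ∈ normalizerIn T Q, ∀ y ∈ centralizerIn S Q, x * y * x⁻¹ ∈ centralizerIn S Q := by
      intro x hx y hy
      rw [mem_centralizerIn]
      refine ⟨S.mul_mem (S.mul_mem (hTS hx.1) hy.1) (S.inv_mem (hTS hx.1)), fun z hz => ?_⟩
      have h1 : x⁻¹ * z * x ∈ Q := by
        have := conj_mem_of_mem_normalizer (Subgroup.inv_mem _ hx.2) hz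
        rwa [inv_inv] at this
      have h2 := comm_of_cent h1 hy
      calc z * (x * y * x⁻¹) = x * ((x⁻¹ * z * x) * y) * x⁻¹ := by group
        _ = x * (y * (x⁻¹ * z * x)) * x⁻¹ := by rw [h2]
        _ = _ := by group
    obtain ⟨t, ht, c, hc, rfl⟩ := (mem_sup_of_conj hnc).1 hd
    refine ⟨cj Q ht.2, (autInducedBy_le_autGroup E hQT) (cj_mem ht.2 ht.1), fun x => ?_⟩
    have h1 := fn_cj ht.2 x.2
    rw [← fn_coe, h1]
    have h2 := comm_of_cent x.2 hc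
    calc t * (x : Ω) * t⁻¹ = t * ((x : Ω) * c) * c⁻¹ * t⁻¹ := by group
      _ = t * (c * x) * c⁻¹ * t⁻¹ := by rw [h2]
      _ = _ := by group)
  have hψQ : IsIso F Q Q ψ := by
    have h1 : k * hκQ.aut ∈ F.autGroup Q := Subgroup.mul_mem _ (hEaut hk) hκQ.aut_mem
    exact (fn_iso hQS h1).congr fun x hx => by rw [eψ x hx, fn_apply _ hx]
  -- `e = β⁻¹ k β`
  set e := hκQ.aut⁻¹ * k * hκQ.aut with he
  have heE : e ∈ E.autGroup Q := by
    have := hAn _ (Subgroup.inv_mem _ hκQ.aut_mem) _ hk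
    rwa [inv_inv] at this
  have hψe : ∀ x ∈ Q, ψ x = κ (fn e x) := by
    intro x hx
    rw [← fn_aut hκQ (fn_mem e hx), ← fn_mul _ _ hx, eψ x hx, ← fn_apply _ hx]
    rw [he]
    congr 1
    group
  -- step 4
  obtain ⟨ê, hê, ê1, ê2⟩ := wx_all hS hE Q _ hQT (fn_iso (F := E) hQT heE).isMap
  have hQX₁' : Q ⊔ img X χ₁ ≤ Q ⊔ CS F E p := sup_le_sup_left hX₁le _
  have hê' : IsMap F (Q ⊔ img X χ₁) ê := hê.mono hQX₁'
  have hêm : ∀ x ∈ Q ⊔ img X χ₁, ê x ∈ Q ⊔ img X χ₁ :=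
    mem_of_sup hê' (fun x hx => by rw [ê1 x hx]; exact Subgroup.mem_sup_left (fn_mem e hx))
      fun x hx => by rw [ê2 x (hX₁le hx)]; exact Subgroup.mem_sup_right hx
  have hκ' : IsMap F (Q ⊔ img X χ₁) (κ ∘ ê) := hê'.comp hκ hêm
  have hκ'Q : ∀ x ∈ Q, (κ ∘ ê) x = ψ x := fun x hx => by
    show κ (ê x) = _
    rw [ê1 x hx, hψe x hx]
  have hκ'X : ∀ x ∈ img X χ₁, (κ ∘ ê) x = κ x := fun x hx => by
    show κ (ê x) = _
    rw [ê2 x (hX₁le hx)]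
  -- step 5
  have hVle : Q ⊔ centralizerIn S Q ≤ Q ⊔ (normalizerIn T Q ⊔ centralizerIn S Q) := sup_le_sup_left le_sup_right _
  have hψV : IsMap F (Q ⊔ centralizerIn S Q) ψ := hψ.mono hVle
  have hψm : ∀ x ∈ Q ⊔ centralizerIn S Q, ψ x ∈ Q ⊔ centralizerIn S Q := by
    refine mem_of_sup hψV (fun x hx => Subgroup.mem_sup_left (hψQ.mem hx)) fun x hx => ?_
    exact Subgroup.mem_sup_right (map_centralizer hψV le_sup_left hψQ (Subgroup.mem_sup_right hx) hx)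
  have hψi : IsIso F (Q ⊔ centralizerIn S Q) (Q ⊔ centralizerIn S Q) ψ := H87.ConstrEq.isIso_of_self hψV hψm
  obtain ⟨lψ, hlψ, lψ1, lψ2⟩ := hψi.symm
  have hlψQ : IsIso F Q Q lψ := by
    refine (hlψ.isMap.mono le_sup_left).isIso_of (fun y hy => ?_) fun x hx => ?_
    · obtain ⟨x, hx, rfl⟩ := hψQ.surj hy
      rw [lψ1 x (Subgroup.mem_sup_left hx)]; exact hx
    · exact ⟨ψ x, hψQ.mem hx, lψ1 x (Subgroup.mem_sup_left hx)⟩
  have hX₁V : img X χ₁ ≤ centralizerIn S Q := (hX₁le.trans CS_le).trans (centT_le hQT)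
  have hκX₁ : ∀ x ∈ img X χ₁, κ x ∈ centralizerIn S Q := fun x hx =>
    map_centralizer hκ le_sup_left hκQ (Subgroup.mem_sup_right hx) (hX₁V hx)
  have hκ'm : ∀ x ∈ Q ⊔ img X χ₁, (κ ∘ ê) x ∈ Q ⊔ centralizerIn S Q :=
    mem_of_sup hκ' (fun x hx => by rw [hκ'Q x hx]; exact Subgroup.mem_sup_left (hψQ.mem hx))
      fun x hx => by rw [hκ'X x hx]; exact Subgroup.mem_sup_right (hκX₁ x hx)
  have hlm : IsMap F (Q ⊔ img X χ₁) (lψ ∘ (κ ∘ ê)) := hκ'.comp hlψ.isMap hκ'm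
  have hlmQ : ∀ x ∈ Q, (lψ ∘ (κ ∘ ê)) x = x := fun x hx => by
    show lψ ((κ ∘ ê) x) = x
    rw [hκ'Q x hx, lψ1 x (Subgroup.mem_sup_left hx)]
  have hlmX : ∀ x ∈ img X χ₁, (lψ ∘ (κ ∘ ê)) x ∈ centralizerIn S Q ∧ ψ ((lψ ∘ (κ ∘ ê)) x) = κ x := fun x hx => by
    have h1 : (lψ ∘ (κ ∘ ê)) x = lψ (κ x) := by show lψ ((κ ∘ ê) x) = _; rw [hκ'X x hx]
    rw [h1]
    exact ⟨map_centralizer hlψ.isMap le_sup_left hlψQ (Subgroup.mem_sup_right (hκX₁ x hx)) (hκX₁ x hx),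
      lψ2 _ (Subgroup.mem_sup_right (hκX₁ x hx))⟩
  generalize lψ ∘ (κ ∘ ê) = lam at hlm hlmQ hlmX
  obtain ⟨C, hC⟩ := exists_centralizerSystem F hQS
  have hCM : CMap F Q (img X χ₁) lam :=
    ⟨hX₁V, fun x hx => (hlmX x hx).1, lam, by rw [sup_comm]; exact hlm, fun _ _ => rfl, hlmQ⟩
  -- step 6
  obtain ⟨lam', hlam', lam1, -, -⟩ := wb_all hS hF hQ hT hQt hC _ _ hX₁V ((isMap_centralizer_iff hC).2 hCM)
  obtain ⟨g₂, hg₂, e₂⟩ := key _ (img X χ₁) lam' (TC.norm hQt) (hNgt Q hQt hcQ) hX₁le hlam'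
  have hX₂ : ∀ x ∈ img X χ₁, lam x ∈ CS F E p := fun x hx => by
    rw [← lam1 x hx, ← e₂ x hx]; exact CS_img hS hE hX₁le hg₂ x hx
  have hlm₁ : IsMap F (img X χ₁) lam := hlm.mono le_sup_right
  have hX₂le : img (img X χ₁) lam ≤ CS F E p := by
    intro y hy
    obtain ⟨x, hx, rfl⟩ := (mem_img hlm₁).1 hy
    exact hX₂ x hx
  -- step 7
  have hX₂V : img (img X χ₁) lam ≤ centralizerIn S Q := (hX₂le.trans CS_le).trans (centT_le hQT)
  have hNX₂ : normalizerIn T Q ⊔ img (img X χ₁) lam ≤ Q ⊔ (normalizerIn T Q ⊔ centralizerIn S Q) :=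
    (sup_le_sup_left hX₂V _).trans le_sup_right
  obtain ⟨g₃, hg₃, e₃⟩ := key _ (img (img X χ₁) lam) ψ (TC.norm hQt) (hNgt Q hQt hcQ) hX₂le (hψ.mono hNX₂)
  have hX₃ : ∀ x ∈ X, κ (χ₁ x) ∈ CS F E p := fun x hx => by
    have h1 : χ₁ x ∈ img X χ₁ := apply_mem_img hx
    rw [← (hlmX _ h1).2, ← e₃ _ (apply_mem_img h1)]
    exact CS_img hS hE hX₂le hg₃ _ (apply_mem_img h1)
  -- step 8
  obtain ⟨l₂, hl₂, l21, l22⟩ := hχ₂.isIso.symm
  have hhXm : IsMap F X h := hh.mono le_sup_right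
  set X₃ := img (img X h) χ₂ with hX₃def
  have hχ₂X : IsMap F (img X h) χ₂ := hχ₂.mono (by
    intro y hy
    obtain ⟨x, hx, rfl⟩ := (mem_img hhXm).1 hy
    exact centralizerIn_le_normalizerIn (hhX x hx))
  have hX₃le : X₃ ≤ CS F E p := by
    intro y hy
    obtain ⟨z, hz, rfl⟩ := (mem_img hχ₂X).1 hy
    obtain ⟨x, hx, rfl⟩ := (mem_img hhXm).1 hz
    rw [← hκX x hx]
    exact hX₃ x hx
  have hN₂i : IsIso F (normalizerIn T (img P h)) (img (normalizerIn T (img P h)) χ₂) χ₂ := (hχ₂.mono (hNTS _)).isIso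
  have hN₂t : TC F T (img (normalizerIn T (img P h)) χ₂) := (TC.norm hP₂t).conj hT hN₂i
  have hN₂c : Nat.card P < Nat.card ↥(img (normalizerIn T (img P h)) χ₂) := by
    rw [← hN₂i.card_eq]
    exact hNgt _ hP₂t hP₂.card_eq.symm
  have hl₂le : img (normalizerIn T (img P h)) χ₂ ⊔ X₃ ≤ img (normalizerIn S (img P h)) χ₂ := by
    refine sup_le (img_mono (hNTS _)) (img_mono ?_)
    intro y hy
    obtain ⟨x, hx, rfl⟩ := (mem_img hhXm).1 hy
    exact centralizerIn_le_normalizerIn (hhX x hx)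
  obtain ⟨g₄, hg₄, e₄⟩ := key _ X₃ l₂ hN₂t hN₂c hX₃le (hl₂.isMap.mono hl₂le)
  -- compose
  have c1 : IsMap F (T ⊔ X) (g₂ ∘ g₁) := comp_T hT hg₁ (fun x hx => by rw [e₁ x hx]; exact apply_mem_img hx) hg₂
  have v1 : ∀ x ∈ X, (g₂ ∘ g₁) x = lam (χ₁ x) := fun x hx => by
    show g₂ (g₁ x) = _
    rw [e₁ x hx, e₂ _ (apply_mem_img hx), lam1 _ (apply_mem_img hx)]
  have c2 : IsMap F (T ⊔ X) (g₃ ∘ (g₂ ∘ g₁)) :=
    comp_T hT c1 (fun x hx => by rw [v1 x hx]; exact apply_mem_img (apply_mem_img hx)) hg₃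
  have v2 : ∀ x ∈ X, (g₃ ∘ (g₂ ∘ g₁)) x = χ₂ (h x) := fun x hx => by
    show g₃ ((g₂ ∘ g₁) x) = _
    rw [v1 x hx, e₃ _ (apply_mem_img (apply_mem_img hx)), (hlmX _ (apply_mem_img hx)).2, hκX x hx]
  have c3 : IsMap F (T ⊔ X) (g₄ ∘ (g₃ ∘ (g₂ ∘ g₁))) :=
    comp_T hT c2 (fun x hx => by rw [v2 x hx]; exact apply_mem_img (apply_mem_img hx)) hg₄
  refine ⟨_, c3, fun x hx => ?_⟩
  show g₄ ((g₃ ∘ (g₂ ∘ g₁)) x) = _
  rw [v2 x hx, e₄ _ (apply_mem_img (apply_mem_img hx)), l21 _ (centralizerIn_le_normalizerIn (hhX x hx))]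

end H90.CSE5
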