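import Cfsg.Agent.Lib.H90.CSE5
set_option autoImplicit false

open Cfsg Cfsg.FusionSystem

namespace H90.CSE6
open H87.Base H87.Basic H87.Syl H87.Sat H87.Grow H87.Inv H87.Frat H87.Cut H87.PPow H87.Crit H87.PPr H87.NE H87.CMap
open H90.CSE1 H90.CSE2 H90.CSE3 H90.CSE4 H90.CSE5

variable {Ω : Type*} [Group Ω] {S T : Subgroup Ω} {F : FusionSystem S} {E D : FusionSystem T}
  {P Q R M U X A : Subgroup Ω} {f g h a b ρ χ : Ω → Ω} {p : ℕ}

theorem comm_inf_mem (hT : F.StronglyClosed T) {R : Subgroup Ω} (hR : R ≤ S) {y r : Ω} (hyT : y ∈ T)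
    (hr : r ∈ R) (hyr : y * r * y⁻¹ ∈ R) : r⁻¹ * (y * r * y⁻¹) ∈ R ⊓ T := by
  refine ⟨R.mul_mem (R.inv_mem hr) hyr, ?_⟩
  have h1 : r⁻¹ * y * r ∈ T := StronglyClosed.conj_mem' hT (hR hr) hyT
  have : r⁻¹ * (y * r * y⁻¹) = (r⁻¹ * y * r) * y⁻¹ := by group
  rw [this]
  exact T.mul_mem h1 (T.inv_mem hyT)

/-- If every `s ∈ N_S(R)` stabilising the chain `1 ≤ R ∩ T ≤ R` lies in `R`, then `R ∩ T` is `TC`. -/
theorem tc_of_radical [Fact p.Prime] [Finite S] (hS : IsPGroup p S) (hF : F.IsSaturated p) (hT : F.StronglyClosed T)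
    (hR : F.IsFullyNormalized R)
    (hD : ∀ s ∈ normalizerIn S R, (∀ x ∈ R ⊓ T, s * x * s⁻¹ = x) → (∀ x ∈ R, x⁻¹ * (s * x * s⁻¹) ∈ R ⊓ T) → s ∈ R) :
    TC F T (R ⊓ T) := by
  have hTS := hT.1
  have hRS := hR.1
  have hPS : R ⊓ T ≤ S := inf_le_left.trans hRS
  obtain ⟨Q, hPQ, hQn⟩ := exists_nice hF hPS
  have hQ := H87.Bridge.fn_of_nice hS hQn
  have hQS := hQ.1
  have hQT : Q ≤ T := conj_le_of_stronglyClosed hT hPQ inf_le_right
  -- enough for `Q`
  suffices hmain : centralizerIn T Q ≤ Q by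
    refine ⟨inf_le_right, fun P' h hh => ?_⟩
    obtain ⟨χ, hχ, hi, hm⟩ := H87.Bridge.exists_map_of_fn hS hF hQ (isConj_trans (isConj_symm hh.isConj) hPQ)
    have hP'S := hh.le'
    intro c hc
    have hc' := mem_centralizerIn.1 hc
    have hcS : c ∈ centralizerIn S P' := mem_centralizerIn.2 ⟨hTS hc'.1, hc'.2⟩
    have h1 : χ c ∈ centralizerIn S Q :=
      map_centralizer hχ (le_normalizerIn hP'S) hi (centralizerIn_le_normalizerIn hcS) hcS
    have h2 : χ c ∈ T := mem_of_stronglyClosed hT hχ (centralizerIn_le_normalizerIn hcS) hc'.1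
    have h3 : χ c ∈ Q := hmain (mem_centralizerIn.2 ⟨h2, (mem_centralizerIn.1 h1).2⟩)
    obtain ⟨x, hx, e⟩ := hi.surj h3
    have : x = c := hχ.inj (le_normalizerIn hP'S hx) (centralizerIn_le_normalizerIn hcS) e
    rw [← this]; exact hx
  obtain ⟨χ, hχ, hi, hm⟩ := H87.Bridge.exists_map_of_fn hS hF hQ hPQ
  have hPfin : Finite ↥(R ⊓ T) := finite_of_le hPS
  have hRN : R ≤ normalizerIn S (R ⊓ T) := by
    intro r hr
    refine mem_normalizerIn_iff.2 ⟨hRS hr, fun y hy => ⟨R.mul_mem (R.mul_mem hr hy.1) (R.inv_mem hr), ?_⟩⟩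
    exact StronglyClosed.conj_mem hT (hRS hr) hy.2
  have hχR : IsMap F R χ := hχ.mono hRN
  set R' := img R χ with hR'
  have hRR' : IsIso F R R' χ := hχR.isIso
  have hR'S : R' ≤ S := hRR'.le'
  have hQR' : Q ≤ R' := by rw [← hi.eq_img]; exact img_mono inf_le_left
  have hR'T : R' ⊓ T ≤ Q := by
    rintro y ⟨hy1, hy2⟩
    obtain ⟨r, hr, rfl⟩ := hRR'.surj hy1
    obtain ⟨l, hl, l1, l2⟩ := hRR'.symm
    have h1 : l (χ r) ∈ T := mem_of_stronglyClosed hT hl.isMap hy1 hy2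
    rw [l1 r hr] at h1
    exact hi.mem ⟨hr, h1⟩
  have hR'N : R' ≤ normalizerIn S Q := by
    intro y hy
    obtain ⟨r, hr, rfl⟩ := hRR'.surj hy
    exact hm r (hRN hr)
  by_contra hne
  have hCR' : ¬ centralizerIn T Q ≤ R' := by
    intro h
    exact hne fun c hc => hR'T ⟨h hc, hc.1⟩
  -- `L = R' C_T(Q)`
  have hnc : ∀ x ∈ R', ∀ y ∈ centralizerIn T Q, x * y * x⁻¹ ∈ centralizerIn T Q := by
    intro x hx y hy
    rw [mem_centralizerIn]
    refine ⟨StronglyClosed.conj_mem hT (hR'S hx) hy.1, fun z hz => ?_⟩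
    have h1 : x⁻¹ * z * x ∈ Q := by
      have := conj_mem_of_mem_normalizer (Subgroup.inv_mem _ (hR'N hx).2) hz
      rwa [inv_inv] at this
    have h2 := (mem_centralizerIn.1 hy).2 _ h1
    calc z * (x * y * x⁻¹) = x * ((x⁻¹ * z * x) * y) * x⁻¹ := by group
      _ = x * (y * (x⁻¹ * z * x)) * x⁻¹ := by rw [h2]
      _ = _ := by group
  have hLS : R' ⊔ centralizerIn T Q ≤ S := sup_le hR'S (inf_le_left.trans hTS)
  have hLfin : Finite ↥(R' ⊔ centralizerIn T Q) := finite_of_le hLS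
  have hLp : IsPGroup p ↥(R' ⊔ centralizerIn T Q) := hS.to_le hLS
  have hlt : R' < R' ⊔ centralizerIn T Q := lt_of_le_of_ne le_sup_left fun e => hCR' (by
    rw [e]; exact le_sup_right)
  obtain ⟨-, w, hwN, hwR⟩ := SetLike.lt_iff_le_and_exists.1 (lt_normalizerIn hLp hlt)
  obtain ⟨x, hx, y, hy, rfl⟩ := (mem_sup_of_conj hnc).1 hwN.1
  have hyR : y ∉ R' := fun h => hwR (R'.mul_mem hx h)
  have hR'fin : Finite R' := finite_of_le hR'S
  have hyN : y ∈ Subgroup.normalizer (R' : Set Ω) := by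
    have h1 : x ∈ Subgroup.normalizer (R' : Set Ω) := Subgroup.le_normalizer hx
    have h2 := Subgroup.mul_mem _ (Subgroup.inv_mem _ h1) hwN.2
    rwa [inv_mul_cancel_left] at h2
  have hyT := hy.1
  obtain ⟨ρ, hρ, hρi, hρm⟩ := H87.Bridge.exists_map_of_fn hS hF hR (isConj_symm hRR'.isConj)
  have hyNS : y ∈ normalizerIn S R' := ⟨hTS hyT, hyN⟩
  have hR'NS : R' ≤ normalizerIn S R' := le_normalizerIn hR'S
  have hρQ : ∀ z ∈ R', ρ z ∈ R ⊓ T → z ∈ Q := by
    intro z hz h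
    obtain ⟨l, hl, l1, l2⟩ := hρi.symm
    have h1 : l (ρ z) ∈ T := mem_of_stronglyClosed hT hl.isMap (hρi.mem hz) h.2
    rw [l1 z hz] at h1
    exact hR'T ⟨hz, h1⟩
  have hs : ρ y ∈ R := by
    refine hD (ρ y) (hρm y hyNS) (fun z hz => ?_) fun z hz => ?_
    · obtain ⟨z', hz', rfl⟩ := hρi.surj hz.1
      have h1 := hρQ z' hz' hz
      rw [← hρ.map_conj hyNS (hR'NS hz')]
      have h2 := (mem_centralizerIn.1 hy).2 z' h1
      have : y * z' * y⁻¹ = z' := by rw [← h2]; group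
      rw [this]
    · obtain ⟨z', hz', rfl⟩ := hρi.surj hz
      have h0 := conj_mem_of_mem_normalizer hyN hz'
      have h1 := comm_inf_mem hT hR'S hyT hz' h0
      rw [← hρ.map_conj hyNS (hR'NS hz'), ← hρ.map_inv (hR'NS hz'),
        ← hρ.map_mul (hR'NS (R'.inv_mem hz')) (hR'NS h0)]
      exact ⟨hρi.mem h1.1, mem_of_stronglyClosed hT hρ (hR'NS h1.1) h1.2⟩
  obtain ⟨z, hz, e⟩ := hρi.surj hs
  have : z = y := hρ.inj (hR'NS hz) hyNS e
  exact hyR (by rw [← this]; exact hz)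

/-- the property for the Alperin induction -/
def WC (F : FusionSystem S) (T C : Subgroup Ω) (P : Subgroup Ω) (f : Ω → Ω) : Prop :=
  (∀ x ∈ P, x ∈ C ↔ f x ∈ C) ∧ ∀ X, X ≤ C → X ≤ P → ∃ g, IsMap F (T ⊔ X) g ∧ ∀ x ∈ X, g x = f x

theorem wc_all [Fact p.Prime] [Finite S] (hS : IsPGroup p S) (hE : E.IsNormalIn F p) :
    ∀ P f, P ≤ S → IsMap F P f → WC F T (CS F E p) P f := by
  have hw : E.IsWeaklyNormalIn F p := hE.1
  have hF := hw.2.1
  have hinv := hw.2.2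
  have hT := hinv.2.1
  have hTS := hT.1
  have hCSS : CS F E p ≤ S := CS_le.trans inf_le_left
  -- one direction suffices for bijections of `P`
  have hbij : ∀ P f, IsIso F P P f → (∀ g, IsIso F P P g → ∀ X, X ≤ CS F E p → X ≤ P →
      ∃ k, IsMap F (T ⊔ X) k ∧ ∀ x ∈ X, k x = g x) → WC F T (CS F E p) P f := by
    intro P f hf hall
    have himp : ∀ g, IsIso F P P g → ∀ x ∈ P, x ∈ CS F E p → g x ∈ CS F E p := by
      intro g hg x hx hxC
      have hz : Subgroup.zpowers x ≤ CS F E p := by rw [Subgroup.zpowers_le]; exact hxC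
      obtain ⟨k, hk, ek⟩ := hall g hg (Subgroup.zpowers x) hz (by rw [Subgroup.zpowers_le]; exact hx)
      rw [← ek x (Subgroup.mem_zpowers x)]
      exact CS_img hS hE hz hk x (Subgroup.mem_zpowers x)
    refine ⟨fun x hx => ⟨himp f hf x hx, fun h => ?_⟩, hall f hf⟩
    obtain ⟨l, hl, l1, l2⟩ := hf.symm
    have := himp l hl _ (hf.mem hx) h
    rwa [l1 x hx] at this
  refine alp hS hF stronglyClosed_top (WC F T (CS F E p)) ?_ ?_ ?_ ?_ ?_ ?_
  · intro P f g _ _ e h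
    refine ⟨fun x hx => by rw [← e x hx]; exact h.1 x hx, fun X h1 h2 => ?_⟩
    obtain ⟨k, hk, ek⟩ := h.2 X h1 h2
    exact ⟨k, hk, fun x hx => by rw [ek x hx, e x (h2 hx)]⟩
  · intro P Q f _ _ hQP h
    exact ⟨fun x hx => h.1 x (hQP hx), fun X h1 h2 => h.2 X h1 (h2.trans hQP)⟩
  · intro P Q f g _ hf hg h1 h2
    refine ⟨fun x hx => (h1.1 x hx).trans (h2.1 _ (hf.mem hx)), fun X hX hXP => ?_⟩
    obtain ⟨k, hk, ek⟩ := h1.2 X hX hXP
    have hfX : IsMap F X f := hf.isMap.mono hXP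
    obtain ⟨l, hl, el⟩ := h2.2 (img X f) (by
      intro y hy
      obtain ⟨x, hx, rfl⟩ := (mem_img hfX).1 hy
      exact (h1.1 x (hXP hx)).1 (hX hx)) (by
      intro y hy
      obtain ⟨x, hx, rfl⟩ := (mem_img hfX).1 hy
      exact hf.mem (hXP hx))
    refine ⟨l ∘ k, comp_T hT hk (fun x hx => by rw [ek x hx]; exact apply_mem_img hx) hl, fun x hx => ?_⟩
    show l (k x) = g (f x)
    rw [ek x hx, el _ (apply_mem_img hx)]
  · intro P Q f g _ hf hg e1 e2 h
    refine ⟨fun y hy => ?_, fun X hX hXQ => ?_⟩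
    · have := h.1 (g y) (hg.mem hy)
      rw [e2 y hy] at this
      exact this.symm
    · have hgX : IsMap F X g := hg.isMap.mono hXQ
      obtain ⟨k, hk, ek⟩ := h.2 (img X g) (by
        intro y hy
        obtain ⟨x, hx, rfl⟩ := (mem_img hgX).1 hy
        rw [h.1 _ (hg.mem (hXQ hx)), e2 x (hXQ hx)]
        exact hX hx) (by
        intro y hy
        obtain ⟨x, hx, rfl⟩ := (mem_img hgX).1 hy
        exact hg.mem (hXQ hx))
      obtain ⟨l, hl, l1, l2⟩ := hk.isIso.symm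
      have hkT : IsIso F T T k := StronglyClosed.isMap_iso hT hk le_sup_left
      have hle : T ⊔ X ≤ img (T ⊔ img X g) k := by
        refine sup_le (fun y hy => ?_) fun y hy => ?_
        · obtain ⟨x, hx, rfl⟩ := hkT.surj hy
          exact apply_mem_img (Subgroup.mem_sup_left hx)
        · have h1 : k (g y) = y := by rw [ek _ (apply_mem_img hy), e2 y (hXQ hy)]
          rw [← h1]
          exact apply_mem_img (Subgroup.mem_sup_right (apply_mem_img hy))
      refine ⟨l, hl.isMap.mono hle, fun x hx => ?_⟩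
      have h1 : k (g x) = x := by rw [ek _ (apply_mem_img hx), e2 x (hXQ hx)]
      have h2 := l1 (g x) (Subgroup.mem_sup_right (apply_mem_img hx))
      rwa [h1] at h2
  · intro f hf
    refine hbij S f hf fun g hg X hX hXS => ⟨g, hg.isMap.mono (sup_le hTS hXS), fun _ _ => rfl⟩
  · intro R hRS hRne hR hIH f hf
    have hRfin : Finite R := finite_of_le hRS
    set P := R ⊓ T with hP
    have hPR : P ≤ R := inf_le_left
    have hfinA : Finite (MulAut R) := finite_mulAut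
    have hPp : IsPGroup p P := hS.to_le (hPR.trans hRS)
    have hPfin : Finite P := finite_of_le (hPR.trans hRS)
    have hKn := stb_normal (F := F) (M := R) (P := P) (hPM := hPR) fun a ha x hx =>
      ⟨fn_mem a hx.1, mem_of_stronglyClosed hT (fn_iso hRS ha).isMap hx.1 hx.2⟩
    have hKle : stb R P hPR ⊓ F.autGroup R ≤ autInducedBy S R :=
      sylIn_normal_le (isFullyAutomized_iff.1 hR.1).2 inf_le_right hKn ((stb_isPGroup hPp).to_le inf_le_left)
    by_cases hD : ∀ s ∈ normalizerIn S R, (∀ x ∈ R ⊓ T, s * x * s⁻¹ = x) →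
        (∀ x ∈ R, x⁻¹ * (s * x * s⁻¹) ∈ R ⊓ T) → s ∈ R
    · have hPt : TC F T P := tc_of_radical hS hF hT (H87.Bridge.fn_of_nice hS hR) hD
      refine hbij R f hf fun g hg X hX hXR => ?_
      exact ext_T hS hE _ P X g hPt rfl hX (hg.isMap.mono (sup_le hPR hXR))
    · push Not at hD
      obtain ⟨s, hs, hs1, hs2, hsR⟩ := hD
      have hsn : s ∈ nphi S R f := by
        -- `f c_s f⁻¹` is in `K`
        have hcs : cj R hs.2 ∈ stb R P hPR ⊓ F.autGroup R := by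
          refine ⟨mem_stb.2 ⟨fun x hx => ?_, fun x hx => ?_⟩, autInducedBy_le_autGroup F hRS (cj_mem hs.2 hs.1)⟩
          · rw [fn_cj hs.2 (hPR hx)]; exact hs1 x hx
          · rw [fn_cj hs.2 hx]; exact hs2 x hx
        obtain ⟨v, hv, ev⟩ := fn_autInduced (hKle (hKn _ hf.aut_mem _ hcs))
        refine mem_nphi.2 ⟨hs.1, hs.2, v, hv, fun x hx => ?_⟩
        rw [← ev _ (hf.mem hx), ← fn_aut hf hx, fn_mul _ _ (fn_mem _ hx), fn_inv_apply _ hx, fn_mul _ _ hx,
          fn_cj hs.2 hx]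
        exact (fn_aut hf (conj_mem_of_mem_normalizer hs.2 hx)).symm
      obtain ⟨g, hg, eg⟩ := (isReceptive_iff.1 hR.2).2 _ _ hf
      have hlt : R < nphi S R f := lt_of_le_of_ne (le_nphi hf.isMap) fun e => hsR (by rw [e]; exact hsn)
      have h1 := hIH _ g nphi_le (card_lt' nphi_le hlt) hg
      refine ⟨fun x hx => ?_, fun X hX hXR => ?_⟩
      · rw [← eg x hx]; exact h1.1 x (hlt.le hx)
      · obtain ⟨k, hk, ek⟩ := h1.2 X hX (hXR.trans hlt.le)
        exact ⟨k, hk, fun x hx => by rw [ek x hx, eg x (hXR hx)]⟩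

theorem CS_stronglyClosed [Fact p.Prime] [Finite S] (hS : IsPGroup p S) (hE : E.IsNormalIn F p) :
    F.StronglyClosed (CS F E p) := by
  rw [stronglyClosed_iff]
  refine ⟨CS_le.trans inf_le_left, fun P f hP hf x hx => ?_⟩
  exact ((wc_all hS hE P f hf.le hf).1 x hx).1 (hP hx)

end H90.CSE6
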