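import Mathlib
set_option autoImplicit false
set_option linter.unusedSectionVars false

/-! Sims/Glauberman: a subgroup `P` and a conjugate meeting in a normal subgroup of prime index of the conjugate.
First part: the shift structure. -/

open Subgroup

namespace H90.GS1

variable {G : Type*} [Group G] [Finite G]

theorem card_rel {H M : Subgroup G} (h : H ≤ M) : Nat.card H * H.relIndex M = Nat.card M := by
  have := relIndex_mul_relIndex ⊥ H M bot_le h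
  rwa [relIndex_bot_left, relIndex_bot_left] at this

theorem maxi {p : ℕ} (hp : p.Prime) {H M N : Subgroup G} (hHM : H ≤ M) (hc : Nat.card M = p * Nat.card H)
    (hHN : H ≤ N) {w : G} (hwM : w ∈ M) (hwN : w ∈ N) (hwH : w ∉ H) : M ≤ N := by
  have h0 : 0 < Nat.card H := Nat.card_pos
  have h1 : H.relIndex M = p := by
    have h2 := card_rel hHM
    rw [hc, mul_comm] at h2
    exact Nat.eq_of_mul_eq_mul_right h0 h2
  have h2 := relIndex_mul_relIndex H (M ⊓ N) M (le_inf hHM hHN) inf_le_left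
  rw [h1] at h2
  have h3 : H.relIndex (M ⊓ N) ∣ p := ⟨_, h2.symm⟩
  rcases (Nat.dvd_prime hp).1 h3 with h4 | h4
  · exfalso
    rw [relIndex_eq_one] at h4
    exact hwH (h4 ⟨hwM, hwN⟩)
  · rw [h4] at h2
    have h5 : (M ⊓ N).relIndex M = 1 := Nat.eq_of_mul_eq_mul_left hp.pos (by rw [h2, mul_one])
    rw [relIndex_eq_one] at h5
    exact h5.trans inf_le_right

/-- intersections of consecutive conjugates -/
def D (P : Subgroup G) (g : G) (i j : ℤ) : Subgroup G where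
  carrier := {x | ∀ l : ℤ, i ≤ l → l ≤ j → g ^ l * x * (g ^ l)⁻¹ ∈ P}
  mul_mem' := by
    intro x y hx hy l h1 h2
    have h3 : g ^ l * (x * y) * (g ^ l)⁻¹ = (g ^ l * x * (g ^ l)⁻¹) * (g ^ l * y * (g ^ l)⁻¹) := by group
    rw [h3]
    exact P.mul_mem (hx l h1 h2) (hy l h1 h2)
  one_mem' := by
    intro l _ _
    rw [mul_one, mul_inv_cancel]
    exact P.one_mem
  inv_mem' := by
    intro x hx l h1 h2
    have h3 : g ^ l * x⁻¹ * (g ^ l)⁻¹ = (g ^ l * x * (g ^ l)⁻¹)⁻¹ := by group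
    rw [h3]
    exact P.inv_mem (hx l h1 h2)

variable {P : Subgroup G} {g : G}

theorem mem_D {i j : ℤ} {x : G} : x ∈ D P g i j ↔ ∀ l : ℤ, i ≤ l → l ≤ j → g ^ l * x * (g ^ l)⁻¹ ∈ P := Iff.rfl

theorem D_conj (m i j : ℤ) (x : G) : g ^ m * x * (g ^ m)⁻¹ ∈ D P g i j ↔ x ∈ D P g (i + m) (j + m) := by
  rw [mem_D, mem_D]
  constructor
  · intro h l h1 h2
    have h3 := h (l - m) (by omega) (by omega)
    have h4 : g ^ (l - m) * (g ^ m * x * (g ^ m)⁻¹) * (g ^ (l - m))⁻¹ = g ^ l * x * (g ^ l)⁻¹ := by group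
    rwa [h4] at h3
  · intro h l h1 h2
    have h3 := h (l + m) (by omega) (by omega)
    have h4 : g ^ (l + m) * x * (g ^ (l + m))⁻¹ = g ^ l * (g ^ m * x * (g ^ m)⁻¹) * (g ^ l)⁻¹ := by group
    rwa [h4] at h3

theorem D_card (m i j : ℤ) : Nat.card (D P g (i + m) (j + m)) = Nat.card (D P g i j) := by
  have h : (D P g (i + m) (j + m)).map (MulAut.conj (g ^ m)).toMonoidHom = D P g i j := by
    ext y
    constructor
    · rintro ⟨x, hx, rfl⟩
      exact (D_conj m i j x).2 hx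
    · intro hy
      refine ⟨(g ^ m)⁻¹ * y * g ^ m, (D_conj m i j _).1 ?_, ?_⟩
      · have h1 : g ^ m * ((g ^ m)⁻¹ * y * g ^ m) * (g ^ m)⁻¹ = y := by group
        rwa [h1]
      · show g ^ m * ((g ^ m)⁻¹ * y * g ^ m) * (g ^ m)⁻¹ = y
        group
  rw [← h, card_map_of_injective (MulAut.conj (g ^ m)).injective]

theorem D_mono {i j i' j' : ℤ} (h1 : i ≤ i') (h2 : j' ≤ j) : D P g i j ≤ D P g i' j' :=
  fun _ hx l h3 h4 => hx l (h1.trans h3) (h4.trans h2)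

theorem D_inf {i j i' j' : ℤ} (h1 : i' ≤ i) (h2 : i ≤ j' + 1) {x : G} (hx : x ∈ D P g i j) (hx' : x ∈ D P g i' j') :
    x ∈ D P g i' j := by
  intro l h3 h4
  by_cases h : l ≤ j'
  · exact hx' l h3 h
  · exact hx l (by omega) h4

section

variable (hn : ∀ x ∈ D P g 1 1, ∀ y ∈ D P g 0 1, x * y * x⁻¹ ∈ D P g 0 1)

include hn

theorem D_norm {i j : ℤ} (hij : i < j) {x y : G} (hx : x ∈ D P g (i + 1) j) (hy : y ∈ D P g i j) :
    x * y * x⁻¹ ∈ D P g i j := by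
  intro l h1 h2
  rcases eq_or_lt_of_le h1 with h | h
  · rw [← h]
    have hx' : g ^ i * x * (g ^ i)⁻¹ ∈ D P g 1 1 := (D_conj i 1 1 x).2 (D_mono (by omega) (by omega) hx)
    have hy' : g ^ i * y * (g ^ i)⁻¹ ∈ D P g 0 1 := (D_conj i 0 1 y).2 (D_mono (by omega) (by omega) hy)
    have h3 := hn _ hx' _ hy' 0 le_rfl (by omega)
    have h4 : g ^ (0 : ℤ) * (g ^ i * x * (g ^ i)⁻¹ * (g ^ i * y * (g ^ i)⁻¹) * (g ^ i * x * (g ^ i)⁻¹)⁻¹) *
        (g ^ (0 : ℤ))⁻¹ = g ^ i * (x * y * x⁻¹) * (g ^ i)⁻¹ := by group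
    rwa [h4] at h3
  · have h3 : g ^ l * (x * y * x⁻¹) * (g ^ l)⁻¹ =
        (g ^ l * x * (g ^ l)⁻¹) * (g ^ l * y * (g ^ l)⁻¹) * (g ^ l * x * (g ^ l)⁻¹)⁻¹ := by group
    rw [h3]
    exact P.mul_mem (P.mul_mem (hx l (by omega) h2) (hy l h1 h2)) (P.inv_mem (hx l (by omega) h2))

theorem D_step {p : ℕ} (hp : p.Prime) (hi : (D P g 0 1).relIndex (D P g 1 1) = p) (j : ℕ) :
    Nat.card (D P g 0 j) = Nat.card (D P g 0 (j + 1 : ℕ)) ∨
      Nat.card (D P g 0 j) = p * Nat.card (D P g 0 (j + 1 : ℕ)) := by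
  have hc : Nat.card (D P g 0 j) = Nat.card (D P g 1 (j + 1 : ℕ)) := by
    have := D_card (P := P) (g := g) 1 0 j
    rw [← this]
    norm_num
  rw [hc]
  have hle : D P g 1 (j + 1 : ℕ) ≤ D P g 1 1 := D_mono le_rfl (by push_cast; omega)
  have hnor : ((D P g 0 1).subgroupOf (D P g 1 1)).Normal := by
    refine ⟨fun y hy x => ?_⟩
    rw [mem_subgroupOf] at hy ⊢
    exact hn x x.2 y hy
  have h1 : ((D P g 0 1).subgroupOf (D P g 1 1)).relIndex ((D P g 1 (j + 1 : ℕ)).subgroupOf (D P g 1 1)) ∣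
      ((D P g 0 1).subgroupOf (D P g 1 1)).index := relIndex_dvd_index_of_normal _ _
  rw [relIndex_subgroupOf hle] at h1
  have h2 : (D P g 0 1).relIndex (D P g 1 (j + 1 : ℕ)) ∣ p := by rw [← hi]; exact h1
  have h3 : D P g 0 (j + 1 : ℕ) = D P g 0 1 ⊓ D P g 1 (j + 1 : ℕ) := by
    apply le_antisymm
    · exact le_inf (D_mono le_rfl (by push_cast; omega)) (D_mono (by omega) le_rfl)
    · rintro x ⟨hx1, hx2⟩
      exact D_inf (by omega) (by omega) hx2 hx1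
  have h4 := card_rel (inf_le_right : D P g 0 1 ⊓ D P g 1 (j + 1 : ℕ) ≤ D P g 1 (j + 1 : ℕ))
  rw [inf_relIndex_right, ← h3] at h4
  rcases (Nat.dvd_prime hp).1 h2 with h5 | h5
  · left; rw [← h4, h5, mul_one]
  · right; rw [← h4, h5, mul_comm]

end

/-- the shift structure: `x i = g ^ i * x0 * g ^ (-i)`, `Y a n` of order `p ^ n` generated by `x a, ..., x (a+n-1)` -/
structure Dat (P : Subgroup G) (g : G) (p t : ℕ) (x : ℤ → G) (Y : ℤ → ℕ → Subgroup G) : Prop where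
  pp : p.Prime
  t1 : 1 ≤ t
  sh : ∀ i j : ℤ, x (i + j) = g ^ i * x j * (g ^ i)⁻¹
  card : ∀ (a : ℤ) (n : ℕ), n ≤ t → Nat.card (Y a n) = p ^ n
  mem : ∀ (a : ℤ) (n : ℕ) (i : ℤ), n ≤ t → a ≤ i → i < a + n → x i ∈ Y a n
  le : ∀ (a : ℤ) (n : ℕ) (N : Subgroup G), n ≤ t → (∀ i : ℤ, a ≤ i → i < a + n → x i ∈ N) → Y a n ≤ N
  inf : ∀ (a : ℤ) (n : ℕ), n + 1 ≤ t → Y a (n + 1) ⊓ Y (a + 1) (n + 1) ≤ Y (a + 1) n
  disj : ∀ (a : ℤ) (n m : ℕ), n + m ≤ t → Y a n ⊓ Y (a + n) m ≤ ⊥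
  conj : ∀ (a : ℤ) (i : ℤ) (n : ℕ) (y : G), g ^ i * y * (g ^ i)⁻¹ ∈ Y (a + i) n ↔ y ∈ Y a n
  top : Y 0 t = P

theorem exists_dat {p : ℕ} (hp : p.Prime) (hn : ∀ x ∈ D P g 1 1, ∀ y ∈ D P g 0 1, x * y * x⁻¹ ∈ D P g 0 1)
    (hi : (D P g 0 1).relIndex (D P g 1 1) = p)
    (h1 : ∀ Q : Subgroup G, Q ≤ P → (∀ x ∈ P, ∀ y ∈ Q, x * y * x⁻¹ ∈ Q) → (∀ y, g * y * g⁻¹ ∈ Q ↔ y ∈ Q) → Q = ⊥) :
    ∃ t x Y, Dat P g p t x Y := by
  classical
  have hstep := D_step hn hp hi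
  have hpos : ∀ j : ℕ, 0 < Nat.card (D P g 0 j) := fun j => Nat.card_pos
  have hex : ∃ k : ℕ, Nat.card (D P g 0 k) = Nat.card (D P g 0 (k + 1 : ℕ)) := by
    by_contra hcon
    push Not at hcon
    have h2 : ∀ j : ℕ, j + Nat.card (D P g 0 j) ≤ Nat.card (D P g 0 (0 : ℕ)) := by
      intro j
      induction j with
      | zero => simp
      | succ j ih =>
        have h3 := (hstep j).resolve_left (hcon j)
        have h4 := hp.two_le
        have h5 := hpos (j + 1)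
        nlinarith
    have h3 := h2 (Nat.card (D P g 0 (0 : ℕ)))
    have h4 := hpos (Nat.card (D P g 0 (0 : ℕ)))
    omega
  obtain ⟨k, hk, hkmin⟩ : ∃ k : ℕ, Nat.card (D P g 0 k) = Nat.card (D P g 0 (k + 1 : ℕ)) ∧
      ∀ j < k, Nat.card (D P g 0 j) = p * Nat.card (D P g 0 (j + 1 : ℕ)) :=
    ⟨Nat.find hex, Nat.find_spec hex, fun j hj => (hstep j).resolve_left (Nat.find_min hex hj)⟩
  have hDP : D P g 0 (0 : ℕ) = P := by
    ext x
    rw [mem_D]
    constructor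
    · intro h
      have h2 := h 0 le_rfl (by simp)
      simpa using h2
    · intro h l h2 h3
      have : l = 0 := by
        have : l ≤ 0 := by simpa using h3
        omega
      rw [this]
      simpa using h
  -- `k` is positive
  have hk1 : 1 ≤ k := by
    by_contra hcon
    have hk0 : k = 0 := by omega
    rw [hk0] at hk
    have h2 : D P g 0 1 ≤ D P g 1 1 := D_mono (by omega) le_rfl
    have h3 := card_rel h2
    rw [hi] at h3
    have h4 := D_card (P := P) (g := g) 1 0 0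
    norm_num at h4
    have h5 : Nat.card (D P g 0 1) = Nat.card (D P g 1 1) := by
      rw [h4]
      have := hk
      push_cast at this
      norm_num at this
      exact this.symm
    rw [← h5] at h3
    have h6 : 0 < Nat.card (D P g 0 1) := Nat.card_pos
    have h7 := hp.two_le
    nlinarith
  obtain ⟨k', rfl⟩ : ∃ k', k = k' + 1 := ⟨k - 1, by omega⟩
  obtain ⟨Q, hQ⟩ : ∃ Q, Q = D P g 0 (k' + 1 : ℕ) := ⟨_, rfl⟩
  have hQg : ∀ y, g * y * g⁻¹ ∈ Q ↔ y ∈ Q := by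
    have e1 : D P g 0 (k' + 1 + 1 : ℕ) = D P g 0 (k' + 1 : ℕ) :=
      eq_of_le_of_card_ge (D_mono le_rfl (by push_cast; omega)) (by rw [← hk])
    have e2 : D P g 0 (k' + 1 + 1 : ℕ) = D P g 1 (k' + 1 + 1 : ℕ) := by
      refine eq_of_le_of_card_ge (D_mono (by omega) le_rfl) ?_
      have h2 := D_card (P := P) (g := g) 1 0 (k' + 1 : ℕ)
      have h3 : ((0 : ℤ) + 1) = 1 := by norm_num
      have h4 : (((k' + 1 : ℕ) : ℤ) + 1) = ((k' + 1 + 1 : ℕ) : ℤ) := by push_cast; ring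
      rw [h3, h4] at h2
      rw [h2, hk]
    intro y
    have h2 := D_conj (P := P) (g := g) 1 0 (k' + 1 : ℕ) y
    have h3 : ((0 : ℤ) + 1) = 1 := by norm_num
    have h4 : (((k' + 1 : ℕ) : ℤ) + 1) = ((k' + 1 + 1 : ℕ) : ℤ) := by push_cast; ring
    rw [h3, h4, ← e2, e1, zpow_one] at h2
    rw [hQ]
    exact h2
  obtain ⟨x0, hx0, hx0'⟩ : ∃ x0, x0 ∈ D P g 0 k' ∧ x0 ∉ D P g 0 (k' + 1 : ℕ) := by
    have h2 : ¬ D P g 0 k' ≤ D P g 0 (k' + 1 : ℕ) := by
      intro hle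
      have h3 := card_le_of_le hle
      have h4 := hkmin k' (by omega)
      have h5 := hp.two_le
      have h6 := hpos (k' + 1)
      nlinarith
    exact SetLike.not_le_iff_exists.1 h2
  have hQpow : ∀ (i : ℤ) (y : G), g ^ i * y * (g ^ i)⁻¹ ∈ Q ↔ y ∈ Q := by
    intro i
    have hnat : ∀ (n : ℕ) (y : G), g ^ n * y * (g ^ n)⁻¹ ∈ Q ↔ y ∈ Q := by
      intro n
      induction n with
      | zero => intro y; simp
      | succ n ih =>
        intro y
        have e : g ^ (n + 1) * y * (g ^ (n + 1))⁻¹ = g * (g ^ n * y * (g ^ n)⁻¹) * g⁻¹ := by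
          rw [pow_succ']; group
        rw [e, hQg, ih]
    intro y
    obtain ⟨n, rfl | rfl⟩ := i.eq_nat_or_neg
    · simpa using hnat n y
    · have h2 := hnat n (g ^ (-(n : ℤ)) * y * (g ^ (-(n : ℤ)))⁻¹)
      have e : g ^ n * (g ^ (-(n : ℤ)) * y * (g ^ (-(n : ℤ)))⁻¹) * (g ^ n)⁻¹ = y := by
        rw [← zpow_natCast]; group
      rw [e] at h2
      exact h2.symm
  -- generation
  have hgen : ∀ i j : ℕ, i + j = k' + 1 → ∀ N : Subgroup G, Q ≤ N →
      (∀ l : ℕ, l < i → g ^ (l : ℤ) * x0 * (g ^ (l : ℤ))⁻¹ ∈ N) → D P g 0 j ≤ N := by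
    intro i
    induction i with
    | zero =>
      intro j hj N hQN _
      rw [zero_add] at hj
      rw [hj, ← hQ]
      exact hQN
    | succ i ih =>
      intro j hj N hQN hN
      have h2 := ih (j + 1) (by omega) N hQN (fun l hl => hN l (by omega))
      refine maxi hp (D_mono le_rfl (by push_cast; omega)) (hkmin j (by omega)) h2
        (w := g ^ (i : ℤ) * x0 * (g ^ (i : ℤ))⁻¹) ?_ (hN i (by omega)) ?_
      · rw [D_conj]
        exact D_mono (by omega) (by omega) hx0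
      · rw [D_conj]
        intro h3
        apply hx0'
        have h4 := D_inf (by omega) (by omega) h3 hx0
        exact D_mono le_rfl (by push_cast; omega) h4
  -- `Q` is trivial
  have hQbot : Q = ⊥ := by
    have hQP : Q ≤ P := by
      rw [← hDP, hQ]
      exact D_mono le_rfl (by push_cast; omega)
    apply h1 Q hQP ?_ hQg
    have hx0N : x0 ∈ normalizer (Q : Set G) := by
      have h2 : (g ^ (-1 : ℤ)) * x0 * (g ^ (-1 : ℤ))⁻¹ ∈ D P g (0 + 1) (k' + 1 : ℕ) := by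
        rw [D_conj]
        exact D_mono (by omega) (by push_cast; omega) hx0
      have h3 : ∀ y ∈ Q, x0 * y * x0⁻¹ ∈ Q := by
        intro y hy
        have hy' : (g ^ (-1 : ℤ)) * y * (g ^ (-1 : ℤ))⁻¹ ∈ Q := (hQpow (-1) y).2 hy
        rw [hQ] at hy'
        have h4 := D_norm hn (by push_cast; omega) h2 hy'
        rw [← hQ] at h4
        rw [← hQpow (-1)]
        have e : (g ^ (-1 : ℤ)) * x0 * (g ^ (-1 : ℤ))⁻¹ * ((g ^ (-1 : ℤ)) * y * (g ^ (-1 : ℤ))⁻¹) *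
          ((g ^ (-1 : ℤ)) * x0 * (g ^ (-1 : ℤ))⁻¹)⁻¹ = (g ^ (-1 : ℤ)) * (x0 * y * x0⁻¹) * (g ^ (-1 : ℤ))⁻¹ := by group
        rwa [e] at h4
      rw [mem_normalizer_iff]
      intro y
      refine ⟨h3 y, fun hy => ?_⟩
      -- finite: conjugation by `x0` is injective on `Q`
      have hfin : (Q : Set G).Finite := Set.toFinite _
      have hsub : (fun y => x0 * y * x0⁻¹) '' (Q : Set G) ⊆ Q := by
        rintro _ ⟨y, hy, rfl⟩
        exact h3 y hy
      have hinj : Function.Injective (fun y => x0 * y * x0⁻¹) := by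
        intro y y' hyy
        exact mul_left_cancel (mul_right_cancel hyy)
      have heq : (fun y => x0 * y * x0⁻¹) '' (Q : Set G) = Q :=
        Set.eq_of_subset_of_ncard_le hsub (by rw [Set.ncard_image_of_injective _ hinj]) hfin
      have ha' : x0 * y * x0⁻¹ ∈ (fun y => x0 * y * x0⁻¹) '' (Q : Set G) := by rw [heq]; exact hy
      obtain ⟨y', hy', hya⟩ := ha'
      rw [← hinj hya]
      exact hy'
    have h2 := hgen (k' + 1) 0 (by omega) (normalizer (Q : Set G)) le_normalizer (by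
      intro l _
      rw [mem_normalizer_iff]
      intro y
      have e1 := mem_normalizer_iff.1 hx0N (g ^ (-(l : ℤ)) * y * (g ^ (-(l : ℤ)))⁻¹)
      rw [hQpow (-(l : ℤ)) y] at e1
      rw [e1, ← hQpow (l : ℤ)]
      have e : g ^ (l : ℤ) * (x0 * (g ^ (-(l : ℤ)) * y * (g ^ (-(l : ℤ)))⁻¹) * x0⁻¹) * (g ^ (l : ℤ))⁻¹ =
        g ^ (l : ℤ) * x0 * (g ^ (l : ℤ))⁻¹ * y * (g ^ (l : ℤ) * x0 * (g ^ (l : ℤ))⁻¹)⁻¹ := by group
      rw [e])
    rw [hDP] at h2
    intro x hx y hy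
    exact (mem_normalizer_iff.1 (h2 hx) y).1 hy
  -- the data
  have hQ1 : D P g 0 (k' + 1 : ℕ) = ⊥ := by rw [← hQ, hQbot]
  have hcard : ∀ i j : ℕ, i + j = k' + 1 → Nat.card (D P g 0 j) = p ^ i := by
    intro i
    induction i with
    | zero =>
      intro j hj
      rw [zero_add] at hj
      rw [hj, hQ1, card_bot, pow_zero]
    | succ i ih =>
      intro j hj
      rw [hkmin j (by omega), ih (j + 1) (by omega), pow_succ, mul_comm]
  refine ⟨k' + 1, fun i => g ^ i * x0 * (g ^ i)⁻¹, fun a n => D P g (-a) ((k' + 1 : ℕ) - n - a), ?_⟩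
  refine ⟨hp, by omega, ?_, ?_, ?_, ?_, ?_, ?_, ?_, ?_⟩
  · intro i j
    group
  · intro a n hn'
    have h2 := D_card (P := P) (g := g) (-a) 0 ((k' + 1 - n : ℕ) : ℤ)
    rw [hcard n (k' + 1 - n) (by omega)] at h2
    have e1 : (0 : ℤ) + -a = -a := by ring
    have e2 : ((k' + 1 - n : ℕ) : ℤ) + -a = ((k' + 1 : ℕ) : ℤ) - n - a := by push_cast [Nat.cast_sub hn']; ring
    rw [e1, e2] at h2
    exact h2
  · intro a n i hn' h2 h3
    show g ^ i * x0 * (g ^ i)⁻¹ ∈ D P g (-a) ((k' + 1 : ℕ) - n - a)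
    rw [D_conj]
    exact D_mono (by omega) (by push_cast; omega) hx0
  · intro a n N hn' hN y hy
    have h2 := hgen n (k' + 1 - n) (by omega) (N.comap (MulAut.conj (g ^ a)).toMonoidHom) (by rw [hQbot]; exact bot_le) (by
      intro l hl
      rw [mem_comap]
      show g ^ a * (g ^ (l : ℤ) * x0 * (g ^ (l : ℤ))⁻¹) * (g ^ a)⁻¹ ∈ N
      have h3 := hN (a + l) (by omega) (by omega)
      have e : g ^ a * (g ^ (l : ℤ) * x0 * (g ^ (l : ℤ))⁻¹) * (g ^ a)⁻¹ = g ^ (a + l) * x0 * (g ^ (a + l))⁻¹ := by group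
      rw [e]
      exact h3)
    have h3 : g ^ (-a) * y * (g ^ (-a))⁻¹ ∈ D P g 0 ((k' + 1 - n : ℕ) : ℤ) := by
      rw [D_conj]
      refine D_mono (by omega) (by push_cast [Nat.cast_sub hn']; omega) hy
    have h4 : g ^ a * (g ^ (-a) * y * (g ^ (-a))⁻¹) * (g ^ a)⁻¹ ∈ N := h2 h3
    have e : g ^ a * (g ^ (-a) * y * (g ^ (-a))⁻¹) * (g ^ a)⁻¹ = y := by group
    rwa [e] at h4
  · rintro a n hn' y ⟨hy1, hy2⟩
    have h2 := D_inf (by omega) (by push_cast; omega) hy1 hy2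
    exact D_mono (by omega) (by push_cast; omega) h2
  · rintro a n m hnm y ⟨hy1, hy2⟩
    have h2 := D_inf (by omega) (by push_cast; omega) hy1 hy2
    have h3 : g ^ (-a - n) * y * (g ^ (-a - n))⁻¹ ∈ D P g 0 (k' + 1 : ℕ) := by
      rw [D_conj]
      exact D_mono (by omega) (by push_cast; omega) h2
    rw [hQ1, mem_bot] at h3
    rw [mem_bot]
    have e : y = (g ^ (-a - n))⁻¹ * (g ^ (-a - n) * y * (g ^ (-a - n))⁻¹) * g ^ (-a - n) := by group
    rw [e, h3]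
    group
  · intro a i n y
    rw [D_conj]
    have e1 : -(a + i) + i = -a := by ring
    have e2 : ((k' + 1 : ℕ) : ℤ) - n - (a + i) + i = ((k' + 1 : ℕ) : ℤ) - n - a := by ring
    rw [e1, e2]
  · show D P g (-0) ((k' + 1 : ℕ) - (k' + 1 : ℕ) - 0) = P
    rw [← hDP]
    congr 1
    simp

end H90.GS1
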