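import Cfsg.Agent.Lib.H90.GS1
set_option autoImplicit false
set_option linter.unusedSectionVars false

/-! Sims/Glauberman: the first noncommuting distance `e` satisfies `2 t ≤ 3 e`, and the bound `t ≤ 3 n`. -/

open Subgroup

namespace H90.GS2

open H90.GS1

variable {G : Type*} [Group G] [Finite G]

theorem normal_p {p : ℕ} (hp : p.Prime) {H M : Subgroup G} {m : ℕ} (hle : H ≤ M) (hH : Nat.card H = p ^ m)
    (hM : Nat.card M = p ^ (m + 1)) {y h : G} (hy : y ∈ M) (hh : h ∈ H) : y * h * y⁻¹ ∈ H := by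
  have h1 : (H.subgroupOf M).index = p := by
    have := card_rel hle
    rw [hH, hM, pow_succ] at this
    exact Nat.eq_of_mul_eq_mul_left (pow_pos hp.pos m) this
  have h2 : (H.subgroupOf M).Normal :=
    Subgroup.normal_of_index_eq_minFac_card (by rw [h1, hM, hp.pow_minFac (by omega)])
  have h3 := h2.conj_mem ⟨h, hle hh⟩ (mem_subgroupOf.2 hh) ⟨y, hy⟩
  exact mem_subgroupOf.1 h3

variable {P : Subgroup G} {g : G} {p t : ℕ} {x : ℤ → G} {Y : ℤ → ℕ → Subgroup G} (S : Dat P g p t x Y)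

include S

theorem Ymono {a b : ℤ} {n m : ℕ} (hm : m ≤ t) (h1 : b ≤ a) (h2 : a + n ≤ b + m) : Y a n ≤ Y b m :=
  S.le a n _ (by omega) (fun i hi1 hi2 => S.mem b m i hm (by omega) (by omega))

theorem cY {a : ℤ} {n : ℕ} (hn : n ≤ t) {y : G} (h : ∀ i : ℤ, a ≤ i → i < a + n → x i * y = y * x i) {s : G}
    (hs : s ∈ Y a n) : s * y = y * s := by
  have h1 := S.le a n (centralizer {y}) hn (fun i hi1 hi2 => mem_centralizer_singleton_iff.2 (h i hi1 hi2)) hs
  exact mem_centralizer_singleton_iff.1 h1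

theorem comm {a : ℤ} {n : ℕ} (hn : n + 2 ≤ t) {s y : G} (hs : s ∈ Y a (n + 1)) (hy : y ∈ Y (a + 1) (n + 1)) :
    s⁻¹ * y⁻¹ * s * y ∈ Y (a + 1) n := by
  have hM1 : Y a (n + 1) ≤ Y a (n + 2) := Ymono S hn le_rfl (by push_cast; omega)
  have hM2 : Y (a + 1) (n + 1) ≤ Y a (n + 2) := Ymono S hn (by omega) (by push_cast; omega)
  have c0 := S.card a (n + 2) hn
  have c1 := S.card a (n + 1) (by omega)
  have c2 := S.card (a + 1) (n + 1) (by omega)
  refine S.inf a n (by omega) (mem_inf.2 ⟨?_, ?_⟩)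
  · have h1 := normal_p S.pp hM1 c1 c0 (inv_mem (hM2 hy)) hs
    rw [inv_inv] at h1
    have e : s⁻¹ * y⁻¹ * s * y = s⁻¹ * (y⁻¹ * s * y) := by group
    rw [e]
    exact mul_mem (inv_mem hs) h1
  · have h1 := normal_p S.pp hM2 c2 c0 (inv_mem (hM1 hs)) (inv_mem hy)
    rw [inv_inv] at h1
    exact mul_mem h1 hy

theorem shift_comm (i a b : ℤ) : x (i + a) * x (i + b) = x (i + b) * x (i + a) ↔ x a * x b = x b * x a := by
  rw [S.sh i a, S.sh i b]
  have e1 : g ^ i * x a * (g ^ i)⁻¹ * (g ^ i * x b * (g ^ i)⁻¹) = g ^ i * (x a * x b) * (g ^ i)⁻¹ := by group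
  have e2 : g ^ i * x b * (g ^ i)⁻¹ * (g ^ i * x a * (g ^ i)⁻¹) = g ^ i * (x b * x a) * (g ^ i)⁻¹ := by group
  rw [e1, e2]
  constructor
  · intro h
    exact mul_left_cancel (mul_right_cancel h)
  · intro h
    rw [h]

/-- commuting at distances less than `e` -/
theorem near {e : ℕ} (h : ∀ d : ℕ, d < e → x 0 * x d = x d * x 0) (i j : ℤ) (h1 : i - j < e) (h2 : j - i < e) :
    x i * x j = x j * x i := by
  have key : ∀ i j : ℤ, i ≤ j → j - i < e → x i * x j = x j * x i := by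
    intro i j hij hd
    obtain ⟨d, hd'⟩ := Int.eq_ofNat_of_zero_le (show 0 ≤ j - i by omega)
    have h3 := (shift_comm S i 0 d).2 (h d (by omega))
    rw [add_zero, ← hd'] at h3
    have e1 : i + (j - i) = j := by ring
    rwa [e1] at h3
  rcases le_total i j with h3 | h3
  · exact key i j h3 h2
  · exact (key j i h3 h1).symm

theorem partA {e : ℕ} (h : ∀ d : ℕ, d < e → x 0 * x d = x d * x 0) (hne : x 0 * x e ≠ x e * x 0) {w : G}
    (hw : w = x 0 * x e * (x 0)⁻¹ * (x e)⁻¹) {a r : ℕ} (ha1 : 1 ≤ a) (hae : a + (r + 1) = e)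
    (hwa : w ∈ Y a (r + 1)) (hwa' : w ∉ Y (a + 1) r) : t ≤ a + e := by
  by_contra hcon
  push Not at hcon
  have hnear := near S h
  obtain ⟨y, hy⟩ : ∃ y, y = x ((a : ℤ) + e) := ⟨_, rfl⟩
  have h1 : x e * y = y * x e := by rw [hy]; exact hnear _ _ (by omega) (by omega)
  obtain ⟨u, hu⟩ : ∃ u, u = (x 0)⁻¹ * y⁻¹ * x 0 * y := ⟨_, rfl⟩
  have huY : u ∈ Y (0 + 1) (a + e - 1) := by
    rw [hu]
    apply comm S (by omega)
    · exact S.mem _ _ _ (by omega) le_rfl (by push_cast; omega)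
    · rw [hy]
      exact S.mem _ _ _ (by omega) (by omega) (by push_cast; omega)
  have h2 : u * x e = x e * u := cY S (by omega) (fun i hi1 hi2 => hnear _ _ (by omega) (by omega)) huY
  have hyw : w * y = y * w := by
    have k1 : y⁻¹ * x 0 * y = x 0 * u := by rw [hu]; group
    have k2 : y⁻¹ * x e * y = x e := by rw [mul_assoc, h1]; group
    have k3 : y⁻¹ * w * y = w := by
      calc y⁻¹ * w * y = (y⁻¹ * x 0 * y) * (y⁻¹ * x e * y) * (y⁻¹ * x 0 * y)⁻¹ * (y⁻¹ * x e * y)⁻¹ := by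
            rw [hw]; group
        _ = (x 0 * u) * x e * (x 0 * u)⁻¹ * (x e)⁻¹ := by rw [k1, k2]
        _ = x 0 * (u * x e) * u⁻¹ * (x 0)⁻¹ * (x e)⁻¹ := by group
        _ = x 0 * (x e * u) * u⁻¹ * (x 0)⁻¹ * (x e)⁻¹ := by rw [h2]
        _ = w := by rw [hw]; group
    calc w * y = y * (y⁻¹ * w * y) := by group
      _ = y * w := by rw [k3]
  have hH : Y ((a : ℤ) + 1) r ≤ centralizer {y} :=
    S.le _ _ _ (by omega) (fun i hi1 hi2 => mem_centralizer_singleton_iff.2 (by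
      rw [hy]; exact hnear _ _ (by omega) (by omega)))
  have hM : Y a (r + 1) ≤ centralizer {y} := by
    refine maxi S.pp (Ymono S (by omega) (by omega) (by push_cast; omega)) ?_ hH hwa
      (mem_centralizer_singleton_iff.2 hyw) hwa'
    rw [S.card _ _ (by omega), S.card _ _ (by omega), pow_succ, mul_comm]
  have h3 := mem_centralizer_singleton_iff.1 (hM (S.mem a (r + 1) a (by omega) le_rfl (by push_cast; omega)))
  apply hne
  have h4 := (shift_comm S a 0 e).1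
  rw [add_zero, ← hy] at h4
  exact h4 h3

theorem partB {e : ℕ} (h : ∀ d : ℕ, d < e → x 0 * x d = x d * x 0) (hne : x 0 * x e ≠ x e * x 0) {w : G}
    (hw : w = x 0 * x e * (x 0)⁻¹ * (x e)⁻¹) {b : ℕ} (hbe : b + 1 < e)
    (hwb : w ∈ Y 1 (b + 1)) (hwb' : w ∉ Y 1 b) : t ≤ 2 * e - (b + 1) := by
  by_contra hcon
  push Not at hcon
  have hnear := near S h
  obtain ⟨y, hy⟩ : ∃ y, y = x ((b : ℤ) + 1 - e) := ⟨_, rfl⟩
  have h1 : x 0 * y = y * x 0 := by rw [hy]; exact hnear _ _ (by omega) (by omega)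
  obtain ⟨u, hu⟩ : ∃ u, u = (x e)⁻¹ * y⁻¹ * x e * y := ⟨_, rfl⟩
  have huY : u ∈ Y ((b : ℤ) + 1 - e + 1) (2 * e - (b + 1) - 1) := by
    have h2 : y⁻¹ * (x e)⁻¹ * y * x e ∈ Y ((b : ℤ) + 1 - e + 1) (2 * e - (b + 1) - 1) := by
      apply comm S (by omega)
      · rw [hy]
        exact S.mem _ _ _ (by omega) le_rfl (by omega)
      · exact S.mem _ _ _ (by omega) (by omega) (by omega)
    have h3 : u = (y⁻¹ * (x e)⁻¹ * y * x e)⁻¹ := by rw [hu]; group
    rw [h3]
    exact inv_mem h2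
  have h2 : u * x 0 = x 0 * u := cY S (by omega) (fun i hi1 hi2 => hnear _ _ (by omega) (by omega)) huY
  have hyw : w * y = y * w := by
    have k1 : y⁻¹ * x e * y = x e * u := by rw [hu]; group
    have k2 : y⁻¹ * x 0 * y = x 0 := by rw [mul_assoc, h1]; group
    have k4 : u * (x 0)⁻¹ = (x 0)⁻¹ * u := by
      calc u * (x 0)⁻¹ = (x 0)⁻¹ * (x 0 * u) * (x 0)⁻¹ := by group
        _ = (x 0)⁻¹ * (u * x 0) * (x 0)⁻¹ := by rw [h2]
        _ = (x 0)⁻¹ * u := by group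
    have k3 : y⁻¹ * w * y = w := by
      calc y⁻¹ * w * y = (y⁻¹ * x 0 * y) * (y⁻¹ * x e * y) * (y⁻¹ * x 0 * y)⁻¹ * (y⁻¹ * x e * y)⁻¹ := by
            rw [hw]; group
        _ = x 0 * (x e * u) * (x 0)⁻¹ * (x e * u)⁻¹ := by rw [k1, k2]
        _ = x 0 * x e * (u * (x 0)⁻¹) * u⁻¹ * (x e)⁻¹ := by group
        _ = x 0 * x e * ((x 0)⁻¹ * u) * u⁻¹ * (x e)⁻¹ := by rw [k4]
        _ = w := by rw [hw]; group
    calc w * y = y * (y⁻¹ * w * y) := by group
      _ = y * w := by rw [k3]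
  have hH : Y 1 b ≤ centralizer {y} :=
    S.le _ _ _ (by omega) (fun i hi1 hi2 => mem_centralizer_singleton_iff.2 (by
      rw [hy]; exact hnear _ _ (by omega) (by omega)))
  have hM : Y 1 (b + 1) ≤ centralizer {y} := by
    refine maxi S.pp (Ymono S (by omega) (by omega) (by push_cast; omega)) ?_ hH hwb
      (mem_centralizer_singleton_iff.2 hyw) hwb'
    rw [S.card _ _ (by omega), S.card _ _ (by omega), pow_succ, mul_comm]
  have h3 := mem_centralizer_singleton_iff.1 (hM (S.mem 1 (b + 1) ((b : ℤ) + 1) (by omega) (by omega)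
    (by push_cast; omega)))
  apply hne
  have h4 := (shift_comm S ((b : ℤ) + 1 - e) 0 e).1
  have e1 : (b : ℤ) + 1 - e + e = (b : ℤ) + 1 := by ring
  rw [add_zero, ← hy, e1] at h4
  exact h4 h3.symm

theorem Y0 {a : ℤ} {w : G} (hw : w ≠ 1) : w ∉ Y a 0 := by
  intro h
  have h1 := S.card a 0 (Nat.zero_le _)
  rw [pow_zero, card_eq_one] at h1
  rw [h1, mem_bot] at h
  exact hw h

theorem dist {e : ℕ} (het : e < t) (h : ∀ d : ℕ, d < e → x 0 * x d = x d * x 0) (hne : x 0 * x e ≠ x e * x 0) :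
    2 * t ≤ 3 * e := by
  classical
  obtain ⟨w, hw⟩ : ∃ w, w = x 0 * x e * (x 0)⁻¹ * (x e)⁻¹ := ⟨_, rfl⟩
  have hw1 : w ≠ 1 := by
    intro h0
    apply hne
    rw [hw, mul_inv_eq_one, mul_inv_eq_iff_eq_mul] at h0
    exact h0
  have he0 : e ≠ 0 := by
    rintro rfl
    exact hne rfl
  have hwY : w ∈ Y 1 (e - 1) := by
    have h1 : (x 0)⁻¹⁻¹ * (x e)⁻¹⁻¹ * (x 0)⁻¹ * (x e)⁻¹ ∈ Y (0 + 1) (e - 1) := by
      apply comm S (by omega)
      · exact inv_mem (S.mem _ _ _ (by omega) le_rfl (by omega))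
      · exact inv_mem (S.mem _ _ _ (by omega) (by omega) (by omega))
    rw [inv_inv, inv_inv] at h1
    rw [hw]
    simpa using h1
  -- `a`
  have hexA : ∃ j : ℕ, w ∉ Y j (e - j) := ⟨e, by rw [Nat.sub_self]; exact Y0 S hw1⟩
  obtain ⟨j, hj, hjmin⟩ : ∃ j : ℕ, w ∉ Y j (e - j) ∧ ∀ i < j, w ∈ Y i (e - i) :=
    ⟨Nat.find hexA, Nat.find_spec hexA, fun i hi => not_not.1 (Nat.find_min hexA hi)⟩
  have hj0 : j ≠ 0 := by
    rintro rfl
    apply hj
    exact Ymono S (by omega) (by omega) (by push_cast; omega) hwY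
  have hj1 : j ≠ 1 := by
    rintro rfl
    apply hj
    exact hwY
  have hje : j ≤ e := by
    by_contra hcon
    have h1 := hjmin e (by omega)
    rw [Nat.sub_self] at h1
    exact Y0 S hw1 h1
  obtain ⟨a, rfl⟩ : ∃ a, j = a + 1 := ⟨j - 1, by omega⟩
  have hwa := hjmin a (by omega)
  obtain ⟨r, hr⟩ : ∃ r, a + (r + 1) = e := ⟨e - a - 1, by omega⟩
  have er : e - a = r + 1 := by omega
  have er' : e - (a + 1) = r := by omega
  rw [er] at hwa
  rw [er'] at hj
  push_cast at hj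
  have hA := partA S h hne hw (by omega) hr hwa hj
  -- `b`
  have hexB : ∃ j : ℕ, w ∈ Y 1 j := ⟨e - 1, hwY⟩
  obtain ⟨j', hj', hjmin'⟩ : ∃ j : ℕ, w ∈ Y 1 j ∧ ∀ i < j, w ∉ Y 1 i :=
    ⟨Nat.find hexB, Nat.find_spec hexB, fun i hi => Nat.find_min hexB hi⟩
  have hj0' : j' ≠ 0 := by
    rintro rfl
    exact Y0 S hw1 hj'
  have hje' : j' ≤ e - 1 := by
    by_contra hcon
    exact hjmin' (e - 1) (by omega) hwY
  obtain ⟨b, rfl⟩ : ∃ b, j' = b + 1 := ⟨j' - 1, by omega⟩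
  have hB := partB S h hne hw (by omega) hj' (hjmin' b (by omega))
  -- `a ≤ b + 1`
  have hab : a ≤ b + 1 := by
    by_contra hcon
    have h1 : w ∈ Y (1 + (b + 1 : ℕ)) (e - 1 - (b + 1)) :=
      Ymono S (by omega) (by push_cast; omega) (by push_cast; omega) hwa
    have h2 := S.disj 1 (b + 1) (e - 1 - (b + 1)) (by omega) ⟨hj', h1⟩
    exact hw1 (mem_bot.1 h2)
  omega

theorem bound {n : ℕ} (hn : 1 ≤ n)
    (hZ : ∀ z ∈ P, (∀ i : ℕ, i ≤ n → ∀ y ∈ Y (-(i : ℤ)) t, y * z = z * y) → z = 1) : t ≤ 3 * n ∧ t ≠ 3 * n - 1 := by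
  classical
  have ht1 := S.t1
  have hx1 : ∀ i, x i ≠ 1 := by
    have h0 : x 0 ≠ 1 := by
      intro h0
      have h1 : ∀ i, x i = 1 := by
        intro i
        have := S.sh i 0
        rw [add_zero, h0] at this
        rw [this]; group
      have h2 := S.le 0 1 ⊥ ht1 (fun i _ _ => by rw [h1 i]; exact one_mem _)
      have h3 := S.card 0 1 ht1
      rw [le_bot_iff.1 h2, card_bot, pow_one] at h3
      exact S.pp.one_lt.ne h3
    intro i hi
    apply h0
    have := S.sh i 0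
    rw [add_zero, hi] at this
    have e : x 0 = (g ^ i)⁻¹ * (g ^ i * x 0 * (g ^ i)⁻¹) * g ^ i := by group
    rw [e, ← this]
    group
  -- an element commuting with a long interval
  have hcen : ∀ i : ℤ, 0 ≤ i → i < t → (∀ j : ℤ, -(n : ℤ) ≤ j → j < t → x j * x i = x i * x j) → False := by
    intro i h1 h2 h3
    apply hx1 i
    apply hZ (x i)
    · rw [← S.top]
      exact S.mem _ _ _ le_rfl h1 (by omega)
    · intro k hk y hy
      exact cY S le_rfl (fun j hj1 hj2 => h3 j (by omega) (by omega)) hy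
  by_cases hab : ∀ d : ℕ, d < t → x 0 * x d = x d * x 0
  · have htn : t ≤ n := by
      by_contra hcon
      exact hcen 0 le_rfl (by omega) (fun j hj1 hj2 => near S hab _ _ (by omega) (by omega))
    omega
  · push Not at hab
    obtain ⟨e, het, hne, hmin⟩ : ∃ e : ℕ, e < t ∧ x 0 * x e ≠ x e * x 0 ∧ ∀ d < e, x 0 * x (d : ℤ) = x d * x 0 := by
      refine ⟨Nat.find hab, (Nat.find_spec hab).1, (Nat.find_spec hab).2, fun d hd => ?_⟩
      have h1 := Nat.find_min hab hd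
      push Not at h1
      exact h1 (hd.trans (Nat.find_spec hab).1)
    have h1 := dist S het hmin hne
    have h2 : 2 * e ≤ t + n := by
      by_contra hcon
      refine hcen ((t : ℤ) - e) (by omega) ?_ (fun j hj1 hj2 => near S hmin _ _ (by omega) (by omega))
      have : e ≠ 0 := by rintro rfl; exact hne rfl
      omega
    omega

end H90.GS2
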