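import Cfsg.Agent.Lib.H90.AltLift
import Cfsg.Agent.Lib.H57.M24Fus2
import Cfsg.Agent.Lib.H63.LeechMcL2

set_option autoImplicit false

/-! The 2-fusion system of a group containing `M₂₂` with odd index local subgroup `2⁴:A₆`. -/

namespace H90.McLFus

open Cfsg H8.GolayCode H8.GolayCount H8.GolayBasic H8.M24Mem H8.M24Chain H57.OctTab H57.OctStab Equiv.Perm H57.M24Fus
open H57.FusSimple

/-- the fixed points of `M22` -/
abbrev D0 : Finset GolayPt := {none, some 0}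

theorem hD0 : D0 ⊆ {pt 23, pt 0} := by decide

theorem hG0 : ∀ g, g ∈ Spor.M22 ↔ g ∈ M24 ∧ ∀ x ∈ D0, g x = x := by
  intro g
  constructor
  · rintro ⟨⟨h1, h2⟩, h3⟩
    refine ⟨h1, fun x hx => ?_⟩
    rw [Finset.mem_insert, Finset.mem_singleton] at hx
    rcases hx with rfl | rfl
    · exact h2
    · exact h3
  · rintro ⟨h1, h2⟩
    exact ⟨⟨h1, h2 none (by simp)⟩, h2 (some 0) (by simp)⟩

abbrev K : Subgroup (Equiv.Perm GolayPt) := Spor.M22
abbrev HK : Subgroup K := Hs K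
abbrev VK : Subgroup K := Vs K
noncomputable abbrev psiK : HK →* alternatingGroup (B D0) := psi hD0 hG0

theorem h4O : pt 4 ∉ O := pt_notMem_O (by norm_num) (by decide)
theorem h6O : pt 6 ∉ O := pt_notMem_O (by norm_num) (by decide)

theorem V_le_H : VK ≤ HK := by
  intro v hv x
  exact VO_mem_O hv

theorem ker_iff (h : HK) : psiK h = 1 ↔ (h : K) ∈ VK := by
  rw [mem_Vs, ← ker_phi hG0]
  constructor
  · intro h1; exact congrArg Subtype.val h1
  · intro h1; exact Subtype.ext h1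

theorem V_sq {v : K} (hv : v ∈ VK) : v * v = 1 := Subtype.ext (VO_sq hv)

theorem V_ne : VK ≠ ⊥ := by
  intro h
  obtain ⟨v, hv, -, hv6⟩ := VO_trans h6O
  have h1 : (⟨v, VO_le hD0 hG0 hv⟩ : K) ∈ VK := hv
  rw [h, Subgroup.mem_bot] at h1
  have h2 : v = 1 := congrArg Subtype.val h1
  rw [h2] at hv6
  exact pt_ne (i := 4) (j := 6) (by norm_num) (by norm_num) (by norm_num) hv6

theorem V_cent (g : K) (hg : ∀ v ∈ VK, g * v = v * g) : g ∈ VK := by
  have hgM := ((hG0 _).1 g.2).1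
  have hcomm : ∀ v ∈ VO, (g : Equiv.Perm GolayPt) * v = v * g := by
    intro v hv
    exact congrArg Subtype.val (hg ⟨v, VO_le hD0 hG0 hv⟩ hv)
  -- `g` preserves the octad
  obtain ⟨v6, hv6, -, hv6'⟩ := VO_trans h6O
  have hv61 : v6 ≠ 1 := by
    intro h1
    rw [h1] at hv6'
    exact pt_ne (i := 4) (j := 6) (by norm_num) (by norm_num) (by norm_num) hv6'
  have hgO : ∀ x, (g : Equiv.Perm GolayPt) x ∈ O ↔ x ∈ O := by
    apply preserves hv6 hv61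
    rw [hcomm v6 hv6]
    simpa using hv6
  have h1 : (g : Equiv.Perm GolayPt) (pt 4) ∉ O := fun h => h4O ((hgO _).1 h)
  obtain ⟨w, hw, hw2, hw4⟩ := VO_trans h1
  -- `w g` fixes the complement of the octad
  have h2 : w * (g : Equiv.Perm GolayPt) = 1 := by
    apply eq_one_of_fix_compl (M24.mul_mem hw.1 hgM)
    intro x hx
    obtain ⟨v, hv, -, hvx⟩ := VO_trans hx
    have h3 : (w * (g : Equiv.Perm GolayPt)) * v = v * (w * g) := by
      rw [mul_assoc, hcomm v hv, ← mul_assoc, VO_comm hw hv, mul_assoc]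
    have h4 : (w * (g : Equiv.Perm GolayPt)) (pt 4) = pt 4 := by
      rw [Equiv.Perm.mul_apply, ← hw4]
      have := congrArg (fun f : Equiv.Perm GolayPt => f (pt 4)) hw2
      exact this
    have h5 := congrArg (fun f : Equiv.Perm GolayPt => f (pt 4)) h3
    change (w * (g : Equiv.Perm GolayPt)) (v (pt 4)) = v ((w * (g : Equiv.Perm GolayPt)) (pt 4)) at h5
    rw [h4, hvx] at h5
    exact h5
  have h3 : (g : Equiv.Perm GolayPt) = w := by
    calc (g : Equiv.Perm GolayPt) = w * w * g := by rw [hw2, one_mul]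
      _ = w := by rw [mul_assoc, h2, mul_one]
  rw [mem_Vs, h3]; exact hw

theorem V_fus : ∀ v ∈ VK, v ≠ 1 → ∀ w ∈ VK, w ≠ 1 → ∃ g : K, g * v * g⁻¹ = w := by
  have key : ∀ v ∈ VO, v ≠ 1 → ∃ h ∈ K, (∀ x, h x ∈ O ↔ x ∈ O) ∧ h (pt 4) = pt 4 ∧
      h (pt 6) = v (pt 4) := by
    intro v hv hv1
    have h1 : v (pt 4) ∉ O := fun h => h4O ((VO_mem_O hv).1 h)
    have h2 : idx (v (pt 4)) ≠ 4 := by
      intro h
      have : v (pt 4) = pt 4 := (pt_idx _).symm.trans (congrArg pt h)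
      exact hv1 (VO_fpf hv h4O this)
    obtain ⟨h, hh, h23, h0, hO, h4, h6⟩ := exH (idx_lt (v (pt 4)))
      (by rw [mem_O] at h1; simpa using h1) h2
    refine ⟨h, (hG0 h).2 ⟨hh, ?_⟩, hO, h4, h6.trans (pt_idx _)⟩
    intro x hx
    have := hD0 hx
    simp only [Finset.mem_insert, Finset.mem_singleton] at this
    rcases this with rfl | rfl
    · exact h23
    · exact h0
  obtain ⟨v6, hv6, -, hv6'⟩ := VO_trans h6O
  have key2 : ∀ v ∈ VO, v ≠ 1 → ∃ g : K, (g : Equiv.Perm GolayPt) * v6 * (g : Equiv.Perm GolayPt)⁻¹ = v := by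
    intro v hv hv1
    obtain ⟨h, hh, hO, h4, h6⟩ := key v hv hv1
    refine ⟨⟨h, hh⟩, ?_⟩
    apply VO_eq (conj_VO ((hG0 h).1 hh).1 hO hv6) hv
    show h (v6 (h⁻¹ (pt 4))) = _
    have h7 : h⁻¹ (pt 4) = pt 4 := by rw [Equiv.Perm.inv_eq_iff_eq]; exact h4.symm
    rw [h7, hv6', h6]
  intro v hv hv1 w hw hw1
  have hv1' : (v : Equiv.Perm GolayPt) ≠ 1 := fun h => hv1 (Subtype.ext h)
  have hw1' : (w : Equiv.Perm GolayPt) ≠ 1 := fun h => hw1 (Subtype.ext h)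
  obtain ⟨g1, h1⟩ := key2 _ hv hv1'
  obtain ⟨g2, h2⟩ := key2 _ hw hw1'
  refine ⟨g2 * g1⁻¹, Subtype.ext ?_⟩
  show (g2 : Equiv.Perm GolayPt) * (g1 : Equiv.Perm GolayPt)⁻¹ * (v : Equiv.Perm GolayPt) *
    ((g2 : Equiv.Perm GolayPt) * (g1 : Equiv.Perm GolayPt)⁻¹)⁻¹ = (w : Equiv.Perm GolayPt)
  have h1' : (g1 : Equiv.Perm GolayPt) * v6 * (g1 : Equiv.Perm GolayPt)⁻¹ =
      (v : Equiv.Perm GolayPt) := h1
  have h2' : (g2 : Equiv.Perm GolayPt) * v6 * (g2 : Equiv.Perm GolayPt)⁻¹ =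
      (w : Equiv.Perm GolayPt) := h2
  rw [← h1', ← h2']; group

theorem exists_x : ∃ x ∈ HK, x ∉ VK ∧ ∃ g : K, ∃ v ∈ VK, g * v * g⁻¹ = x := by
  obtain ⟨t, ht, g, hg, v, hv, hvO, g23, g0, hgv, htO, ht2⟩ := exT
  have hvV : v ∈ VO := ⟨hv, hvO⟩
  have hgG : g ∈ K := by
    refine (hG0 g).2 ⟨hg, fun x hx => ?_⟩
    have := hD0 hx
    simp only [Finset.mem_insert, Finset.mem_singleton] at this
    rcases this with rfl | rfl
    · exact g23
    · exact g0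
  have hvG : v ∈ K := VO_le hD0 hG0 hvV
  have htG : t ∈ K := by
    rw [← hgv]
    exact K.mul_mem (K.mul_mem hgG hvG) (K.inv_mem hgG)
  refine ⟨⟨t, htG⟩, htO, ?_, ⟨g, hgG⟩, ⟨v, hvG⟩, hvV, Subtype.ext hgv⟩
  intro h
  have h1 := (mem_Vs.1 h).2 (pt 2) (pt_mem_O (by norm_num) (by decide))
  change t (pt 2) = pt 2 at h1
  rw [ht2] at h1
  exact pt_ne (by norm_num) (by norm_num) (by norm_num) h1

theorem V_ti : ∀ v ∈ VK, v ≠ 1 → ∀ g : K, g * v * g⁻¹ ∈ VK → g ∈ HK := by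
  intro v hv hv1 g hg
  exact preserves hv (fun h => hv1 (Subtype.ext h)) hg

theorem card_HK : Nat.card HK = 5760 := by
  have h2 := card_Hs hD0 hG0
  have h3 : (D0).card = 2 := by decide
  rw [h3] at h2
  have h4 : (8 - 2).factorial = 720 := rfl
  have h5 : 2 * Nat.card (Hs K) = 2 * 5760 := by rw [h2, h4]
  exact Nat.eq_of_mul_eq_mul_left (by norm_num) h5

section emb

variable {G : Type*} [Group G] [Finite G] (ι : K →* G) (hι : Function.Injective ι)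
include hι

theorem simple_of_emb (hodd : ¬ 2 ∣ (HK.map ι).index)
    (hN : ∃ S₀ : Sylow 2 G, (S₀ : Subgroup G) ≤ HK.map ι ∧
      Subgroup.normalizer ((S₀ : Subgroup G) : Set G) ≤ ι.range) (S : Sylow 2 G) :
    (groupFusionSystem (S : Subgroup G)).IsSimple 2 := by
  classical
  have hβ : 6 ≤ Fintype.card (B D0) := by
    rw [card_B hD0]
    decide
  let eH : HK ≃* HK.map ι := HK.equivMapOfInjective ι hι
  let ψ' : HK.map ι →* alternatingGroup (B D0) := psiK.comp eH.symm.toMonoidHom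
  have heH : ∀ h : HK, ((eH h : HK.map ι) : G) = ι h := fun h => rfl
  have hVH : VK.map ι ≤ HK.map ι := Subgroup.map_mono V_le_H
  have hker : ∀ h : HK.map ι, ψ' h = 1 ↔ (h : G) ∈ VK.map ι := by
    intro h
    obtain ⟨k, rfl⟩ := eH.surjective h
    show psiK (eH.symm (eH k)) = 1 ↔ _
    rw [MulEquiv.symm_apply_apply, ker_iff, heH]
    constructor
    · exact fun h => ⟨_, h, rfl⟩
    · rintro ⟨v, hv, hvk⟩
      rwa [hι hvk] at hv
  have hsurj : Function.Surjective ψ' := (psi_surj hD0 hG0).comp eH.symm.surjective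
  have hV2 : ∀ v ∈ VK.map ι, v * v = 1 := by
    rintro _ ⟨v, hv, rfl⟩
    rw [← map_mul, V_sq hv, map_one]
  have hV1 : VK.map ι ≠ ⊥ := by
    intro h
    rw [Subgroup.map_eq_bot_iff_of_injective _ hι] at h
    exact V_ne h
  have hC : ∀ g ∈ HK.map ι, (∀ v ∈ VK.map ι, g * v = v * g) → g ∈ VK.map ι := by
    rintro _ ⟨g, hg, rfl⟩ h
    refine ⟨g, V_cent g fun v hv => hι ?_, rfl⟩
    rw [map_mul, map_mul]
    exact h _ ⟨v, hv, rfl⟩
  have hfus : ∀ v ∈ VK.map ι, v ≠ 1 → ∀ w ∈ VK.map ι, w ≠ 1 → ∃ g : G, g * v * g⁻¹ = w := by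
    rintro _ ⟨v, hv, rfl⟩ hv1 _ ⟨w, hw, rfl⟩ hw1
    obtain ⟨g, hg⟩ := V_fus v hv (fun h => hv1 (by rw [h, map_one])) w hw (fun h => hw1 (by rw [h, map_one]))
    exact ⟨ι g, by rw [← map_mul, ← map_inv, ← map_mul, hg]⟩
  have hx : ∃ x ∈ HK.map ι, x ∉ VK.map ι ∧ ∃ g : G, ∃ v ∈ VK.map ι, g * v * g⁻¹ = x := by
    obtain ⟨x, hx, hxV, g, v, hv, hgv⟩ := exists_x
    refine ⟨ι x, ⟨x, hx, rfl⟩, ?_, ι g, ι v, ⟨v, hv, rfl⟩, by rw [← map_mul, ← map_inv, ← map_mul, hgv]⟩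
    rintro ⟨y, hy, hyx⟩
    rw [hι hyx] at hy
    exact hxV hy
  obtain ⟨S₁, hS₁⟩ := H90.AltLift.exists_ha hβ (HK.map ι) (VK.map ι) hVH ψ' hker hsurj hV2 hV1 hC hfus hx hodd
  obtain ⟨S₀, hS₀, hNr⟩ := hN
  -- the normalizer of `S₀`
  have hVn : ∀ h ∈ HK.map ι, ∀ v ∈ VK.map ι, h * v * h⁻¹ ∈ VK.map ι := by
    intro h hh v hv
    have h1 : ψ' (⟨h, hh⟩ * ⟨v, hVH hv⟩ * ⟨h, hh⟩⁻¹) = 1 := by
      rw [map_mul, map_mul, map_inv, (hker ⟨v, hVH hv⟩).2 hv]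
      simp
    exact (hker _).1 h1
  have hVp : IsPGroup 2 (VK.map ι) := by
    rintro ⟨v, hv⟩
    refine ⟨1, Subtype.ext ?_⟩
    show v ^ 2 ^ 1 = 1
    rw [pow_one, pow_two]; exact hV2 v hv
  have hSN : (S₀ : Subgroup G) ≤ Subgroup.normalizer (VK.map ι : Set G) := fun s hs =>
    Subgroup.mem_normalizer_fintype fun v hv => hVn s (hS₀ hs) v hv
  have hVS : VK.map ι ≤ (S₀ : Subgroup G) := by
    have h1 := S₀.is_maximal' (IsPGroup.to_sup_of_normal_right' S₀.isPGroup' hVp hSN) le_sup_left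
    rw [← h1]
    exact le_sup_right
  have hNH : Subgroup.normalizer ((S₀ : Subgroup G) : Set G) ≤ HK.map ι := by
    -- a central element of `S₀` in `V`
    have hz := H65.PBasic.inf_centralizer_ne_bot (S₀ : Subgroup G) (VK.map ι) S₀.isPGroup' hVp hSN hV1
    obtain ⟨⟨z, hzV, hzC⟩, hz1'⟩ := Subgroup.ne_bot_iff_exists_ne_one.1 hz
    have hz1 : z ≠ 1 := fun h => hz1' (Subtype.ext h)
    obtain ⟨v, hv, rfl⟩ := hzV
    intro g hg
    obtain ⟨k, rfl⟩ := hNr hg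
    refine ⟨k, V_ti v hv (fun h => hz1 (by rw [h, map_one])) k ?_, rfl⟩
    apply V_cent
    intro w hw
    apply hι
    -- `g z g⁻¹` centralizes `S₀ ≥ V`
    have h1 : (ι k)⁻¹ * ι w * ι k ∈ (S₀ : Subgroup G) := by
      have := (Subgroup.mem_normalizer_iff.1 ((Subgroup.normalizer _).inv_mem hg) (ι w)).1 (hVS ⟨w, hw, rfl⟩)
      simpa using this
    have h2 := Subgroup.mem_centralizer_iff.1 hzC _ h1
    rw [map_mul, map_mul ι w, map_mul, map_mul, map_inv]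
    calc ι k * ι v * (ι k)⁻¹ * ι w = ι k * (ι v * ((ι k)⁻¹ * ι w * ι k)) * (ι k)⁻¹ := by group
      _ = ι k * (((ι k)⁻¹ * ι w * ι k) * ι v) * (ι k)⁻¹ := by rw [h2]
      _ = ι w * (ι k * ι v * (ι k)⁻¹) := by group
  refine isSimple_of_some S₀ ?_ (H90.AltLift.ha_all S₁ hS₁ S₀)
    (H90.AltLift.hb_of hβ (HK.map ι) (VK.map ι) hVH ψ' hker hsurj hV2 hC S₀ hS₀ hNH) S
  intro h
  apply hV1
  rw [eq_bot_iff, ← h]
  exact hVS

end emb

end H90.McLFus
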