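import Cfsg.Agent.Lib.H90.McLFus
import Cfsg.Prelude.Def_Spor_Conway

set_option autoImplicit false

/-! The normalizer of a Sylow 2-subgroup of `McL` fixes a frame vector; the 2-fusion system of `McL` is simple. -/

namespace H90.McLNorm

open Cfsg H8.GolayCode H8.GolayCount H8.GolayBasic H8.M24Mem H57.OctTab H57.OctStab Equiv.Perm H57.M24Fus
open H57.FusSimple H90.McLFus MulAction
open H63.LeechFrame H63.LeechMcL H9.Leech H9.LeechGood H9.Cross H33.Leech1

/-! ### arithmetic -/

theorem arith (wN w0 c d e : ℤ) (h1 : wN + w0 = 8) (h2 : wN + w0 + 4 * c + 2 * d + 16 * e - 4 * wN = -24)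
    (h3 : wN ^ 2 + w0 ^ 2 + 4 * c ^ 2 + 2 * d ^ 2 + 16 * e ^ 2 = 64) :
    wN = 8 ∧ w0 = 0 ∧ c = 0 ∧ d = 0 ∧ e = 0 := by
  obtain ⟨A, rfl⟩ : ∃ A, wN = 4 + A := ⟨wN - 4, by ring⟩
  obtain rfl : w0 = 4 - A := by linarith
  obtain ⟨d', rfl⟩ : ∃ d', d = 2 * d' := ⟨A - 4 - c - 4 * e, by linarith⟩
  have hA : A = 4 + c + d' + 4 * e := by linarith
  have h4 : A ^ 2 + 2 * c ^ 2 + 4 * d' ^ 2 + 8 * e ^ 2 = 16 := by nlinarith
  have he1 : e ≤ 1 := by nlinarith [sq_nonneg A, sq_nonneg c, sq_nonneg d']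
  have he2 : -1 ≤ e := by nlinarith [sq_nonneg A, sq_nonneg c, sq_nonneg d']
  have hc1 : c ≤ 2 := by nlinarith [sq_nonneg A, sq_nonneg e, sq_nonneg d']
  have hc2 : -2 ≤ c := by nlinarith [sq_nonneg A, sq_nonneg e, sq_nonneg d']
  have hd1 : d' ≤ 2 := by nlinarith [sq_nonneg A, sq_nonneg e, sq_nonneg c]
  have hd2 : -2 ≤ d' := by nlinarith [sq_nonneg A, sq_nonneg e, sq_nonneg c]
  subst hA
  interval_cases e <;> interval_cases c <;> interval_cases d' <;> first | (exfalso; norm_num at h4; done) | norm_num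

/-! ### coordinates -/

theorem D0_sub : D0 ⊆ O := by
  intro x hx
  have := hD0 hx
  simp only [Finset.mem_insert, Finset.mem_singleton] at this
  rcases this with rfl | rfl
  · exact pt_mem_O (by norm_num) (by decide)
  · exact pt_mem_O (by norm_num) (by decide)

theorem sum_eq (e6 : B D0 ≃ Fin 6) (x : GolayPt → ℤ) (c d e : ℤ) (h1 : ∀ i, i ∉ O → x i = e)
    (h2 : ∀ b : B D0, x b = ![c, c, c, c, d, d] (e6 b)) :
    ∑ i, x i = x none + x (some 0) + 4 * c + 2 * d + 16 * e := by
  classical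
  rw [← Finset.sum_add_sum_compl O]
  have h3 : ∑ i ∈ Oᶜ, x i = 16 * e := by
    rw [Finset.sum_congr rfl (fun i hi => h1 i (Finset.mem_compl.1 hi)), Finset.sum_const, Finset.card_compl,
      card_O, H8.GolayCode.card_pt]
    simp
  have h4 : ∑ i ∈ O, x i = ∑ i ∈ O \ D0, x i + ∑ i ∈ D0, x i := (Finset.sum_sdiff D0_sub).symm
  have h5 : ∑ i ∈ D0, x i = x none + x (some 0) := Finset.sum_pair (by simp)
  have h6 : ∑ i ∈ O \ D0, x i = ∑ b : B D0, x b :=
    Finset.sum_subtype (O \ D0) (fun i => by rw [Finset.mem_sdiff]) x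
  have h7 : ∑ b : B D0, x b = ∑ j : Fin 6, ![c, c, c, c, d, d] j := by
    rw [← Equiv.sum_comp e6]
    exact Finset.sum_congr rfl fun b _ => h2 b
  have h8 : ∑ j : Fin 6, ![c, c, c, c, d, d] j = 4 * c + 2 * d := by
    rw [Fin.sum_univ_six]
    simp only [Matrix.cons_val]
    ring
  rw [h3, h4, h5, h6, h7, h8]
  ring

theorem card_B6 : Fintype.card (B D0) = 6 := by
  rw [card_B hD0]
  decide

noncomputable def e6 : B D0 ≃ Fin 6 := Fintype.equivFinOfCardEq card_B6

def tau : Equiv.Perm (Fin 6) := c[0, 1, 2, 3] * c[4, 5]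

theorem sign_tau : Equiv.Perm.sign tau = 1 := by decide

/-- the even permutation of the six points -/
noncomputable def sig : alternatingGroup (B D0) :=
  ⟨e6.symm.permCongr tau, by
    rw [Equiv.Perm.mem_alternatingGroup, Equiv.Perm.sign_permCongr]
    exact sign_tau⟩

theorem sig_pow : sig ^ 4 = 1 := by
  apply Subtype.ext
  have h1 : tau ^ 4 = 1 := by decide
  show (e6.symm.permCongr tau) ^ 4 = 1
  have h2 : (e6.symm.permCongr tau) ^ 4 = e6.symm.permCongr (tau ^ 4) := by
    have := map_pow (e6.symm.permCongrHom) tau 4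
    exact this.symm
  rw [h2, h1]
  exact map_one (e6.symm.permCongrHom)

theorem exists_h : ∃ h : HK, psiK h = sig ∧ ∃ k, h ^ 2 ^ k = 1 := by
  obtain ⟨h, hh⟩ := psi_surj hD0 hG0 sig
  haveI : Finite HK := inferInstance
  have hpos : orderOf h ≠ 0 := (orderOf_pos h).ne'
  obtain ⟨k, m, hm, hkm⟩ := Nat.exists_eq_two_pow_mul_odd hpos
  refine ⟨h ^ (m * m), ?_, k, ?_⟩
  · rw [map_pow]
    change (psi hD0 hG0 h) ^ (m * m) = sig
    rw [hh]
    obtain ⟨r, rfl⟩ := hm
    have h1 : (2 * r + 1) * (2 * r + 1) = 4 * (r * r + r) + 1 := by ring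
    rw [h1, pow_add, pow_mul, sig_pow, one_pow, one_mul, pow_one]
  · rw [← pow_mul, show m * m * 2 ^ k = (2 ^ k * m) * m by ring, ← hkm, pow_mul, pow_orderOf_eq_one, one_pow]

theorem apply_eq {h : HK} (hh : psiK h = sig) (b : B D0) :
    ((h : K) : Equiv.Perm GolayPt) b = ((e6.symm (tau (e6 b)) : B D0) : GolayPt) := by
  have h1 : phi hG0 h = e6.symm.permCongr tau := congrArg Subtype.val hh
  have h2 := congrArg (fun f : Equiv.Perm (B D0) => ((f b : B D0) : GolayPt)) h1
  exact h2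

/-! ### the frame vector -/

theorem hpq : (none : GolayPt) ≠ some 0 := by simp

abbrev G0 : Subgroup Co0 := GG (s44 hpq) (o3 none)

theorem conf : Conf none (some 0) (s44 hpq) (o3 none) := mcl_conf hpq

theorem memM24 (σ : K) : (σ : Equiv.Perm GolayPt) ∈ M24 := σ.2.1.1
theorem fixN (σ : K) : (σ : Equiv.Perm GolayPt) none = none := σ.2.1.2
theorem fix0 (σ : K) : (σ : Equiv.Perm GolayPt) (some 0) = some 0 := σ.2.2

/-- the embedding of `M₂₂` -/
noncomputable def iota : K →* G0 where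
  toFun σ := ⟨perm σ.1 (memM24 σ), (conf.fx σ.1 (memM24 σ) (fixN σ) (fix0 σ)).1,
    (conf.fx σ.1 (memM24 σ) (fixN σ) (fix0 σ)).2⟩
  map_one' := by
    apply Subtype.ext
    apply Subtype.ext
    ext x : 1
    apply Subtype.ext
    show ((perm (1 : Equiv.Perm GolayPt) M24.one_mem • x : leechLattice) : GolayPt → ℤ) = x
    rw [coe_perm]
    rfl
  map_mul' σ τ := by
    apply Subtype.ext
    exact perm_mul (memM24 σ) (memM24 τ)

theorem iota_inj : Function.Injective iota := by
  intro σ τ h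
  have h1 : perm σ.1 (memM24 σ) = perm τ.1 (memM24 τ) := congrArg (fun z : G0 => z.1) h
  exact Subtype.ext (perm_injective h1)

theorem mem_range (g : G0) (hg : g • e8 none = e8 none) : g ∈ iota.range := by
  obtain ⟨σ, hσ, hN, h0, hgσ⟩ := conf.st g.1 hg g.2.1 g.2.2
  exact ⟨⟨σ, ⟨hσ, hN⟩, h0⟩, Subtype.ext hgσ.symm⟩

theorem iota_smul_e8 (σ : K) : iota σ • e8 none = e8 none := by
  show perm σ.1 (memM24 σ) • e8 none = e8 none
  rw [perm_e8, fixN]

theorem coord (σ : K) (w : leechLattice) (h : iota σ • w = w) (i : GolayPt) :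
    (w : GolayPt → ℤ) ((σ : Equiv.Perm GolayPt) i) = (w : GolayPt → ℤ) i := by
  have h1 : perm σ.1 (memM24 σ) • w = w := h
  have h2 := congrArg (fun z : leechLattice => (z : GolayPt → ℤ) ((σ : Equiv.Perm GolayPt) i)) h1
  simp only [coe_perm] at h2
  rw [← h2]
  simp

/-- the only vector of the orbit of the frame vector fixed by a Sylow 2-subgroup -/
theorem fixed_eq {h : HK} (hh : psiK h = sig) (w : leechLattice) (hw : w ∈ XX none (s44 hpq) (o3 none))
    (hV : ∀ v ∈ VK, iota v • w = w) (hhw : iota (h : K) • w = w) : w = e8 none := by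
  obtain ⟨hw1, hw2, hw3⟩ := hw
  rw [form_e8_s44] at hw2
  rw [form_e8_o3] at hw3
  have he : ∀ i, i ∉ O → (w : GolayPt → ℤ) i = (w : GolayPt → ℤ) (pt 4) := by
    intro i hi
    obtain ⟨v, hv, -, hvi⟩ := VO_trans hi
    have h1 := coord ⟨v, VO_le hD0 hG0 hv⟩ w (hV _ hv) (pt 4)
    rw [← hvi]
    exact h1
  have hb : ∀ j : Fin 6, (w : GolayPt → ℤ) (e6.symm (tau j) : B D0) = (w : GolayPt → ℤ) (e6.symm j : B D0) := by
    intro j
    have h1 := coord (h : K) w hhw (e6.symm j : B D0)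
    rw [apply_eq hh, Equiv.apply_symm_apply] at h1
    exact h1
  have t0 : tau 0 = 1 := by decide
  have t1 : tau 1 = 2 := by decide
  have t2 : tau 2 = 3 := by decide
  have t4 : tau 4 = 5 := by decide
  have b0 := hb 0
  have b1 := hb 1
  have b2 := hb 2
  have b4 := hb 4
  rw [t0] at b0
  rw [t1] at b1
  rw [t2] at b2
  rw [t4] at b4
  set c := (w : GolayPt → ℤ) (e6.symm 0 : B D0) with hc
  set d := (w : GolayPt → ℤ) (e6.symm 4 : B D0) with hd
  have hB : ∀ b : B D0, (w : GolayPt → ℤ) b = ![c, c, c, c, d, d] (e6 b) := by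
    intro b
    obtain ⟨j, rfl⟩ := e6.symm.surjective b
    rw [Equiv.apply_symm_apply]
    fin_cases j
    · rfl
    · exact b0
    · exact b1.trans b0
    · exact b2.trans (b1.trans b0)
    · rfl
    · exact b4
  have s1 := sum_eq e6 (w : GolayPt → ℤ) c d _ he hB
  have s2 := sum_eq e6 (fun i => (w : GolayPt → ℤ) i ^ 2) (c ^ 2) (d ^ 2) ((w : GolayPt → ℤ) (pt 4) ^ 2)
    (fun i hi => by rw [he i hi]) (fun b => by
      show (w : GolayPt → ℤ) b ^ 2 = _
      rw [hB b]
      generalize e6 b = j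
      fin_cases j <;> rfl)
  have f1 := eight_form_self w
  have f2 := eight_form w (s44 hpq)
  have f3 := eight_form w (o3 none)
  rw [hw1] at f1
  rw [hw2, dot_s44] at f2
  rw [hw3, dot_o3] at f3
  have f1' : ∑ i, (w : GolayPt → ℤ) i ^ 2 = 64 := f1.symm
  obtain ⟨r1, r2, r3, r4, r5⟩ := arith ((w : GolayPt → ℤ) none) ((w : GolayPt → ℤ) (some 0)) c d
    ((w : GolayPt → ℤ) (pt 4)) (by linarith) (by linarith) (by linarith)
  apply Subtype.ext
  funext i
  rw [coe_e8]
  by_cases hi : i = none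
  · rw [hi, Pi.single_eq_same, r1]
  · rw [Pi.single_eq_of_ne hi]
    by_cases hi0 : i = some 0
    · rw [hi0, r2]
    · by_cases hiO : i ∈ O
      · have h1 := hB ⟨i, hiO, by
          rw [Finset.mem_insert, Finset.mem_singleton]
          tauto⟩
        refine h1.trans ?_
        generalize e6 _ = j
        rw [r3, r4]
        fin_cases j <;> rfl
      · rw [he i hiO, r5]

theorem index_odd : ¬ 2 ∣ (HK.map iota).index := by
  have h1 := Subgroup.card_mul_index (HK.map iota)
  have h2 : Nat.card (HK.map iota) = 5760 := by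
    rw [← card_HK]
    exact Nat.card_congr (HK.equivMapOfInjective iota iota_inj).symm.toEquiv
  have h3 : Nat.card G0 = 898128000 := (isMcL_std hpq).2
  rw [h2, h3] at h1
  omega

instance : Finite G0 := Nat.finite_of_card_ne_zero (by
  have h3 : Nat.card G0 = 898128000 := (isMcL_std hpq).2
  rw [h3]; norm_num)

theorem exists_S : ∃ S₀ : Sylow 2 G0, (S₀ : Subgroup G0) ≤ HK.map iota ∧
      Subgroup.normalizer ((S₀ : Subgroup G0) : Set G0) ≤ iota.range := by
  classical
  obtain ⟨h, hh, k, hk⟩ := exists_h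
  -- a 2-subgroup of `HK`
  have hVn : ∀ x : HK, ∀ v : HK, (v : K) ∈ VK → ((x * v * x⁻¹ : HK) : K) ∈ VK := by
    intro x v hv
    rw [← ker_iff] at hv ⊢
    rw [map_mul, map_mul, hv, mul_one, ← map_mul, mul_inv_cancel, map_one]
  let V' : Subgroup HK := VK.subgroupOf HK
  haveI : V'.Normal := ⟨fun v hv x => hVn x v hv⟩
  have hV'p : IsPGroup 2 V' := by
    rintro ⟨v, hv⟩
    refine ⟨1, Subtype.ext (Subtype.ext ?_)⟩
    show (v : K) ^ 2 ^ 1 = 1
    rw [pow_one, pow_two]; exact V_sq hv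
  have hZp : IsPGroup 2 (Subgroup.zpowers h) := by
    rintro ⟨x, hx⟩
    obtain ⟨n, rfl⟩ := Subgroup.mem_zpowers_iff.1 hx
    refine ⟨k, Subtype.ext ?_⟩
    show (h ^ n) ^ 2 ^ k = 1
    rw [← zpow_natCast, ← zpow_mul, mul_comm, zpow_mul, zpow_natCast, hk, one_zpow]
  have hP : IsPGroup 2 (V' ⊔ Subgroup.zpowers h : Subgroup HK) := IsPGroup.to_sup_of_normal_left hV'p hZp
  obtain ⟨Q, hQ⟩ := hP.exists_le_sylow
  have hQp : IsPGroup 2 ((Q : Subgroup HK).map (iota.comp HK.subtype)) := Q.isPGroup'.map _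
  have hindex : ¬ 2 ∣ ((Q : Subgroup HK).map (iota.comp HK.subtype)).index := by
    have h1 : (Q : Subgroup HK).map (iota.comp HK.subtype) =
        (((Q : Subgroup HK).map HK.subtype).map iota) := (Subgroup.map_map _ _ _).symm
    have h2 := Subgroup.card_mul_index ((Q : Subgroup HK).map (iota.comp HK.subtype))
    have h3 : Nat.card ((Q : Subgroup HK).map (iota.comp HK.subtype)) = Nat.card (Q : Subgroup HK) :=
      (Nat.card_congr ((Q : Subgroup HK).equivMapOfInjective _ (iota_inj.comp HK.subtype_injective)).toEquiv).symm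
    have h4 : Nat.card G0 = 898128000 := (isMcL_std hpq).2
    have h5 := Subgroup.card_mul_index (Q : Subgroup HK)
    rw [card_HK] at h5
    rw [h3, h4, show (898128000 : ℕ) = 5760 * 155925 by norm_num, ← h5, mul_assoc] at h2
    have h6 := Nat.eq_of_mul_eq_mul_left (Nat.card_pos) h2
    rw [h6]
    intro h7
    rcases Nat.prime_two.dvd_mul.1 h7 with h8 | h8
    · exact Q.not_dvd_index h8
    · omega
  let S₀ : Sylow 2 G0 := hQp.toSylow hindex
  have hS₀ : (S₀ : Subgroup G0) = (Q : Subgroup HK).map (iota.comp HK.subtype) := rfl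
  refine ⟨S₀, ?_, ?_⟩
  · rw [hS₀]
    rintro _ ⟨x, hx, rfl⟩
    exact ⟨x, x.2, rfl⟩
  · intro g hg
    apply mem_range
    have hfix : ∀ s ∈ (S₀ : Subgroup G0), s • (g • e8 none) = g • e8 none := by
      intro s hs
      have h1 : g⁻¹ * s * g ∈ (S₀ : Subgroup G0) := by
        have := (Subgroup.mem_normalizer_iff.1 ((Subgroup.normalizer _).inv_mem hg) s).1 hs
        simpa using this
      rw [hS₀] at h1
      obtain ⟨x, -, hx⟩ := h1
      have h2 : (g⁻¹ * s * g) • e8 none = e8 none := by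
        rw [← hx]
        exact iota_smul_e8 _
      rw [mul_smul, mul_smul, inv_smul_eq_iff] at h2
      exact h2
    refine fixed_eq hh _ (smul_mem_XX g (e8_mem_XX _ _ _)) ?_ ?_
    · intro v hv
      apply hfix
      rw [hS₀]
      refine ⟨⟨v, V_le_H hv⟩, hQ (Subgroup.mem_sup_left ?_), rfl⟩
      exact hv
    · apply hfix
      rw [hS₀]
      exact ⟨h, hQ (Subgroup.mem_sup_right (Subgroup.mem_zpowers h)), rfl⟩

/-! ### transport to `McL` -/

/-- the second vector -/
def vW : leechLattice := -(Spor.leechU + Spor.leechV)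

theorem form_UU : form Spor.leechU Spor.leechU = 4 := by
  have := eight_form_self Spor.leechU
  have h2 : sqNorm (Spor.leechU : GolayPt → ℤ) = 32 := by decide
  omega

theorem form_VV : form Spor.leechV Spor.leechV = 6 := by
  have := eight_form_self Spor.leechV
  have h2 : sqNorm (Spor.leechV : GolayPt → ℤ) = 48 := by decide
  omega

theorem form_UV : form Spor.leechU Spor.leechV = -3 := by
  have := eight_form Spor.leechU Spor.leechV
  have h2 : dotInt (Spor.leechU : GolayPt → ℤ) (Spor.leechV : GolayPt → ℤ) = -24 := by decide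
  omega

theorem form_WW : form vW vW = 4 := by
  have := eight_form_self vW
  have h2 : sqNorm (vW : GolayPt → ℤ) = 32 := by decide
  omega

theorem form_UW : form Spor.leechU vW = -1 := by
  have := eight_form Spor.leechU vW
  have h2 : dotInt (Spor.leechU : GolayPt → ℤ) (vW : GolayPt → ℤ) = -8 := by decide
  omega

theorem McL_eq : (GG Spor.leechU vW).map Co0.subtype = Spor.McL := by
  ext f
  constructor
  · rintro ⟨g, ⟨h1, h2⟩, rfl⟩
    have h1' : g • Spor.leechU = Spor.leechU := h1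
    have h2' : g • vW = vW := h2
    have h3 : g • Spor.leechV = Spor.leechV := by
      have h4 : Spor.leechV = -(vW) - Spor.leechU := by
        unfold vW; abel
      rw [h4, co0_sub, co0_neg, h1', h2']
    exact ⟨⟨g.2, h3⟩, h1'⟩
  · rintro ⟨⟨h1, h2⟩, h3⟩
    refine ⟨⟨f, h1⟩, ⟨h3, ?_⟩, rfl⟩
    show (⟨f, h1⟩ : Co0) • vW = vW
    have h2' : (⟨f, h1⟩ : Co0) • Spor.leechV = Spor.leechV := h2
    have h3' : (⟨f, h1⟩ : Co0) • Spor.leechU = Spor.leechU := h3
    unfold vW
    rw [co0_neg, co0_add, h2', h3']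

theorem exists_equiv : Nonempty (G0 ≃* Spor.McL) := by
  obtain ⟨t, h1, h2, h3⟩ := mcl_exists form_UU form_WW form_UW
  obtain ⟨g, _, hg1, hg2⟩ := mcl_tr hpq h1 form_UU form_WW h2 h3 form_UW
  exact ⟨(H63.LeechHS.ggEquiv hg1 hg2).symm.trans
    (((GG Spor.leechU vW).equivMapOfInjective Co0.subtype Co0.subtype_injective).trans
      (MulEquiv.subgroupCongr McL_eq))⟩

theorem mcl_simple {G : Type*} [Group G] [Finite G] (hG : Spor.IsoMcL G) (S : Sylow 2 G) :
    (groupFusionSystem (S : Subgroup G)).IsSimple 2 := by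
  obtain ⟨e⟩ := hG
  obtain ⟨e2⟩ := exists_equiv
  let e3 : G0 ≃* G := e2.trans e.symm
  let ι : K →* G := e3.toMonoidHom.comp iota
  have hι : Function.Injective ι := e3.injective.comp iota_inj
  have hmap : HK.map ι = (HK.map iota).map e3.toMonoidHom := (Subgroup.map_map _ _ _).symm
  refine simple_of_emb ι hι ?_ ?_ S
  · have h1 : ((HK.map iota).map e3.toMonoidHom).index = (HK.map iota).index :=
      Subgroup.index_map_equiv _ e3
    rw [hmap, h1]
    exact index_odd
  · obtain ⟨S₀, h1, h2⟩ := exists_S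
    refine ⟨S₀.mapSurjective (f := e3.toMonoidHom) e3.surjective, ?_, ?_⟩
    · rw [hmap]
      exact Subgroup.map_mono h1
    · intro g hg
      obtain ⟨g', rfl⟩ := e3.surjective g
      have h3 : g' ∈ Subgroup.normalizer ((S₀ : Subgroup G0) : Set G0) := by
        rw [Subgroup.mem_normalizer_iff] at hg ⊢
        intro x
        have h4 := hg (e3 x)
        have h5 : ∀ y : G0, e3 y ∈ ((S₀.mapSurjective (f := e3.toMonoidHom) e3.surjective : Sylow 2 G) : Subgroup G) ↔
            y ∈ (S₀ : Subgroup G0) := by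
          intro y
          constructor
          · rintro ⟨z, hz, hzy⟩
            rwa [← e3.injective hzy]
          · exact fun hy => ⟨y, hy, rfl⟩
        rw [← map_inv, ← map_mul, ← map_mul, h5, h5] at h4
        exact h4
      obtain ⟨k, hk⟩ := h2 h3
      exact ⟨k, congrArg e3 hk⟩

end H90.McLNorm
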